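import Cfsg.Agent.Char.Thompson
import Cfsg.Agent.Char.DefectZero
import Cfsg.Agent.Char.InvolutionCount
import Cfsg.Agent.Coprime.Generation
import Cfsg.Agent.CharExt.Extension
import Cfsg.Agent.Transfer.Residual

/-!
# Characters multiplicative on coprime prime power elements
-/

set_option autoImplicit false
set_option linter.unusedSectionVars false
set_option linter.style.haveILetI false

namespace Cfsg.Agent.Char9.MulPairs

open Subgroup Cfsg.Agent
open scoped ComplexConjugate commutatorElement Classical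

universe u

variable {G : Type u} [Group G] [Fintype G]

/-- Multiplicativity on elements of coprime prime power orders. -/
def Mult (G : Type u) [Group G] : Prop :=
  ∀ (x y : G) (χ : Cfsg.IrrCharacter G), x ≠ 1 → y ≠ 1 →
    (∃ p q a b : ℕ, p.Prime ∧ q.Prime ∧ p ≠ q ∧ orderOf x = p ^ a ∧ orderOf y = q ^ b) →
      (χ : G → ℂ) (x * y) = (χ : G → ℂ) x * (χ : G → ℂ) y

theorem mul_eq_zero_of_nonlinear (hm : Mult G) (χ : Cfsg.IrrCharacter G)
    (hχ : (χ : G → ℂ) 1 ≠ 1) {x y : G} (hx : x ≠ 1) (hy : y ≠ 1)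
    (h : ∃ p q a b : ℕ, p.Prime ∧ q.Prime ∧ p ≠ q ∧ orderOf x = p ^ a ∧ orderOf y = q ^ b) :
    (χ : G → ℂ) x * (χ : G → ℂ) y = 0 := by
  obtain ⟨n, ρ, hρ, hc⟩ := χ.2
  haveI := hρ
  set T : (Fin n → ℂ) →ₗ[ℂ] (Fin n → ℂ) := ∑ g : G, ρ (g * y * g⁻¹) with hT
  obtain ⟨c, hc'⟩ := CharExt.exists_scalar_of_commute ρ T (fun k => by
    show T * ρ k = ρ k * T
    rw [hT, Finset.sum_mul, Finset.mul_sum]
    simp_rw [← map_mul]
    refine (Fintype.sum_equiv (Equiv.mulLeft k) _ _ fun g => ?_).symm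
    congr 1
    rw [Equiv.coe_mulLeft]
    group)
  have htr : ∀ z : G, ∑ g : G, (χ : G → ℂ) (z * (g * y * g⁻¹)) = c * (χ : G → ℂ) z := by
    intro z
    rw [← hc]
    calc ∑ g : G, ρ.character (z * (g * y * g⁻¹))
        = LinearMap.trace ℂ _ (ρ z * T) := by
          rw [hT, Finset.mul_sum, map_sum]
          simp_rw [← map_mul]
          rfl
      _ = c * ρ.character z := by
          rw [hc', mul_smul_comm, mul_one, map_smul, smul_eq_mul]
          rfl
  have h1 := htr 1
  have h2 : ∀ g : G, (χ : G → ℂ) (1 * (g * y * g⁻¹)) = (χ : G → ℂ) y := fun g => by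
    rw [one_mul]; exact Char.irr_isClassFunction χ.2 y g
  rw [Finset.sum_congr rfl fun g _ => h2 g, Finset.sum_const, Finset.card_univ, nsmul_eq_mul] at h1
  have h3 : ∀ g : G, (χ : G → ℂ) (x * (g * y * g⁻¹)) = (χ : G → ℂ) x * (χ : G → ℂ) y := by
    intro g
    have ho : orderOf (g * y * g⁻¹) = orderOf y := (MulAut.conj g).orderOf_eq y
    rw [hm x (g * y * g⁻¹) χ hx (fun e => hy (by
      have := congrArg orderOf e
      rwa [ho, orderOf_one, orderOf_eq_one_iff] at this)) (by rw [ho]; exact h),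
      Char.irr_isClassFunction χ.2 y g]
  have h4 := htr x
  rw [Finset.sum_congr rfl fun g _ => h3 g, Finset.sum_const, Finset.card_univ, nsmul_eq_mul] at h4
  have hG : (Fintype.card G : ℂ) ≠ 0 := Nat.cast_ne_zero.2 Fintype.card_ne_zero
  have h5 : (Fintype.card G : ℂ) *
      (((χ : G → ℂ) 1 - 1) * ((χ : G → ℂ) x * (χ : G → ℂ) y)) = 0 := by
    linear_combination (χ : G → ℂ) 1 * h4 - (χ : G → ℂ) x * h1
  exact ((mul_eq_zero.1 ((mul_eq_zero.1 h5).resolve_left hG)).resolve_left (sub_ne_zero.2 hχ))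

/-- Vanishing on the nontrivial `p`-elements forces the full `p`-part of the order. -/
theorem pow_dvd_of_vanish {χ : G → ℂ} (hχ : Cfsg.IsIrrCharacter G χ) {p d : ℕ} [Fact p.Prime]
    (hd : χ 1 = (d : ℂ)) (R : Sylow p G)
    (hv : ∀ x : G, x ≠ 1 → (∃ j, orderOf x = p ^ j) → χ x = 0) :
    Nat.card (R : Subgroup G) ∣ d := by
  obtain ⟨m, hm⟩ := Char.isCharacter_classInner_nat
    (Char.isCharacter_comp (Char.isCharacter_of_irr hχ) (R : Subgroup G).subtype)
    (Char.trivialIrr (R : Subgroup G))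
  rw [Cfsg.classInner, Finset.sum_eq_single (1 : (R : Subgroup G))] at hm
  · simp only [Function.comp_apply, map_one, hd, Char.trivialIrr, mul_one] at hm
    refine ⟨m, ?_⟩
    have : (d : ℂ) = (Nat.card (R : Subgroup G) : ℂ) * (m : ℂ) := by
      rw [← hm, ← mul_assoc, mul_inv_cancel₀ (Nat.cast_ne_zero.2 Nat.card_pos.ne'), one_mul]
    exact_mod_cast this
  · intro b _ hb
    obtain ⟨j, hj⟩ := (IsPGroup.iff_orderOf.1 R.2) b
    have : χ (b : G) = 0 := hv b (fun e => hb (Subtype.ext e))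
      ⟨j, by rw [Subgroup.orderOf_coe]; exact hj⟩
    simp [Function.comp_apply, this]
  · simp

theorem degree_sq_lt {χ : Cfsg.IrrCharacter G} (hχ : (χ : G → ℂ) 1 ≠ 1) {d : ℕ}
    (hd : (χ : G → ℂ) 1 = (d : ℂ)) : d ^ 2 < Nat.card G := by
  have hne : χ ≠ Char.trivialIrr G := fun e => hχ (by rw [e]; rfl)
  choose n hn hn' using fun ξ : Cfsg.IrrCharacter G => Char.irr_one_pos ξ.2
  have h := Char.sum_irr_degree_sq (G := G)
  simp only [hn'] at h
  have h' : ∑ ξ : Cfsg.IrrCharacter G, n ξ ^ 2 = Nat.card G := by exact_mod_cast h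
  have hsub : n χ ^ 2 + n (Char.trivialIrr G) ^ 2 ≤ ∑ ξ : Cfsg.IrrCharacter G, n ξ ^ 2 := by
    rw [← Finset.sum_pair (f := fun ξ : Cfsg.IrrCharacter G => n ξ ^ 2) hne]
    exact Finset.sum_le_sum_of_subset (Finset.subset_univ _)
  have hdn : n χ = d := Nat.cast_inj.1 ((hn' χ).symm.trans hd)
  have : 0 < n (Char.trivialIrr G) ^ 2 := pow_pos (hn _) 2
  rw [hdn] at hsub
  omega

/-- All irreducible characters linear means abelian. -/
theorem comm_of_linear {X : Type u} [Group X] [Fintype X]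
    (h : ∀ χ : Cfsg.IrrCharacter X, (χ : X → ℂ) 1 = 1) (a b : X) : a * b = b * a := by
  rw [← commutatorElement_eq_one_iff_mul_comm]
  by_contra hne
  have h1 := Char.sum_irr_degree_mul (G := X) ⁅a, b⁆
  rw [if_neg hne, Finset.sum_congr rfl (g := fun _ => (1 : ℂ)) (fun χ _ => by
    rw [h χ, one_mul]
    exact Char.linear_eq_one_of_mem_commutator (Char.isCharacter_of_irr χ.2) (h χ)
      (Subgroup.commutator_mem_commutator (Subgroup.mem_top a) (Subgroup.mem_top b))),
    Finset.sum_const, nsmul_one, Nat.cast_eq_zero, Finset.card_univ, Fintype.card_eq_zero_iff] at h1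
  exact h1.false (Char.trivialIrr _)

/-- The prime of nonvanishing. -/
theorem exists_prime (hm : Mult G) {χ₀ : Cfsg.IrrCharacter G} (hχ₀ : (χ₀ : G → ℂ) 1 ≠ 1) :
    ∃ p : ℕ, p.Prime ∧ ∀ χ : Cfsg.IrrCharacter G, (χ : G → ℂ) 1 ≠ 1 →
      ∀ r : ℕ, r.Prime → r ≠ p → ∀ (R : Sylow r G) (d : ℕ), (χ : G → ℂ) 1 = (d : ℂ) →
        Nat.card (R : Subgroup G) ∣ d := by
  have hex : ∀ χ : Cfsg.IrrCharacter G, (χ : G → ℂ) 1 ≠ 1 → ∃ p : ℕ, p.Prime ∧
      (∀ r : ℕ, r.Prime → r ≠ p → ∀ (R : Sylow r G) (d : ℕ), (χ : G → ℂ) 1 = (d : ℂ) →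
        Nat.card (R : Subgroup G) ∣ d) ∧ (∀ R : Sylow p G,
          (R : Subgroup G).index < Nat.card (R : Subgroup G)) := by
    intro χ hχ
    obtain ⟨d, hd0, hd⟩ := Char.irr_one_pos χ.2
    have hlt := degree_sq_lt hχ hd
    obtain ⟨x, p, j, hp, hx1, hxo, hx0⟩ : ∃ (x : G) (p j : ℕ), p.Prime ∧ x ≠ 1 ∧
        orderOf x = p ^ j ∧ (χ : G → ℂ) x ≠ 0 := by
      by_contra hall
      have hdvd : Nat.card G ∣ d := by
        refine Nat.dvd_iff_prime_pow_dvd_dvd _ _ |>.2 fun r i hr hri => ?_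
        haveI := Fact.mk hr
        obtain ⟨R⟩ : Nonempty (Sylow r G) := inferInstance
        refine dvd_trans ?_ (pow_dvd_of_vanish χ.2 hd R fun x hx ⟨j, hj⟩ => ?_)
        · rw [Sylow.card_eq_multiplicity R]
          exact Nat.pow_dvd_pow r ((hr.pow_dvd_iff_le_factorization Nat.card_pos.ne').1 hri)
        · by_contra hne
          exact hall ⟨x, r, j, hr, hx, hj, hne⟩
      have := Nat.le_of_dvd hd0 hdvd
      nlinarith
    have hdvd : ∀ r : ℕ, r.Prime → r ≠ p → ∀ (R : Sylow r G) (d : ℕ), (χ : G → ℂ) 1 = (d : ℂ) →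
        Nat.card (R : Subgroup G) ∣ d := by
      intro r hr hrp R d hd
      haveI := Fact.mk hr
      refine pow_dvd_of_vanish χ.2 hd R fun z hz hz' => ?_
      obtain ⟨i, hi⟩ := hz'
      exact (mul_eq_zero.1 (mul_eq_zero_of_nonlinear hm χ hχ hx1 hz
        ⟨p, r, j, i, hp, hr, Ne.symm hrp, hxo, hi⟩)).resolve_left hx0
    refine ⟨p, hp, hdvd, fun R => ?_⟩
    haveI := Fact.mk hp
    have hI : (R : Subgroup G).index ∣ d := by
      refine Nat.dvd_iff_prime_pow_dvd_dvd _ _ |>.2 fun r i hr hri => ?_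
      rcases eq_or_ne r p with e | e
      · rcases Nat.eq_zero_or_pos i with hi | hi
        · simp [hi]
        · exact absurd ((dvd_pow_self r hi.ne').trans hri) (e ▸ R.not_dvd_index)
      · haveI := Fact.mk hr
        obtain ⟨R'⟩ : Nonempty (Sylow r G) := inferInstance
        refine dvd_trans ?_ (hdvd r hr e R' d hd)
        rw [Sylow.card_eq_multiplicity R']
        exact Nat.pow_dvd_pow r ((hr.pow_dvd_iff_le_factorization Nat.card_pos.ne').1
          (hri.trans (Subgroup.index_dvd_card _)))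
    have hle := Nat.le_of_dvd hd0 hI
    have hci := (R : Subgroup G).card_mul_index
    nlinarith
  obtain ⟨p, hp, -, hpi⟩ := hex χ₀ hχ₀
  refine ⟨p, hp, fun χ hχ => ?_⟩
  obtain ⟨r, hr, h, hri⟩ := hex χ hχ
  rcases eq_or_ne r p with e | e
  · exact e ▸ h
  exfalso
  haveI := Fact.mk hp
  haveI := Fact.mk hr
  obtain ⟨P⟩ : Nonempty (Sylow p G) := inferInstance
  obtain ⟨R⟩ : Nonempty (Sylow r G) := inferInstance
  obtain ⟨a, ha⟩ := P.2.exists_card_eq
  obtain ⟨b, hb⟩ := R.2.exists_card_eq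
  have hc : (Nat.card (P : Subgroup G)).Coprime (Nat.card (R : Subgroup G)) := by
    rw [ha, hb]; exact Nat.Coprime.pow _ _ ((Nat.coprime_primes hp hr).2 (Ne.symm e))
  have h1 : Nat.card (R : Subgroup G) ≤ (P : Subgroup G).index := by
    refine Nat.le_of_dvd (Nat.pos_of_ne_zero Subgroup.index_ne_zero_of_finite) (hc.symm.dvd_of_dvd_mul_left ?_)
    rw [(P : Subgroup G).card_mul_index]
    exact Subgroup.card_subgroup_dvd_card _
  have h2 : Nat.card (P : Subgroup G) ≤ (R : Subgroup G).index := by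
    refine Nat.le_of_dvd (Nat.pos_of_ne_zero Subgroup.index_ne_zero_of_finite) (hc.dvd_of_dvd_mul_left ?_)
    rw [(R : Subgroup G).card_mul_index]
    exact Subgroup.card_subgroup_dvd_card _
  have := hpi P
  have := hri R
  omega

/-- With all nonlinear degrees divisible by the `p'`-part, the Sylow `p`-subgroup is normal. -/
theorem sylow_normal {p : ℕ} [Fact p.Prime]
    (h : ∀ χ : Cfsg.IrrCharacter G, (χ : G → ℂ) 1 ≠ 1 →
      ∀ r : ℕ, r.Prime → r ≠ p → ∀ (R : Sylow r G) (d : ℕ), (χ : G → ℂ) 1 = (d : ℂ) →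
        Nat.card (R : Subgroup G) ∣ d) (P : Sylow p G) : (P : Subgroup G).Normal := by
  let I := {r : ℕ // r.Prime ∧ r ≠ p ∧ r ∣ Nat.card G}
  set K : Subgroup G := ⨅ r : I, Cfsg.pResidual r.1 G with hK
  haveI hKn : K.Normal := Subgroup.normal_iInf_normal fun r => by
    haveI := Fact.mk r.2.1
    infer_instance
  have hKp : IsPGroup p K := by
    refine IsPGroup.of_card (n := (Nat.card K).primeFactorsList.length) ?_
    refine Nat.eq_prime_pow_of_unique_prime_dvd (Nat.card_pos (α := K)).ne' fun {r} hr hrd => ?_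
    by_contra hne
    have hrG : r ∣ Nat.card G := hrd.trans (Subgroup.card_subgroup_dvd_card K)
    haveI := Fact.mk hr
    refine Char.not_dvd_card_pResidual_of_degrees (p := r) (G := G) (fun χ hd => ?_)
      (hrd.trans (Subgroup.card_dvd_of_le (iInf_le _ (⟨r, hr, hne, hrG⟩ : I))))
    obtain ⟨d, -, hd'⟩ := Char.irr_one_pos χ.2
    rw [Char.charDegree_of_eq hd'] at hd ⊢
    obtain ⟨R⟩ : Nonempty (Sylow r G) := inferInstance
    refine dvd_trans ?_ (h χ (fun e => hd (by rw [hd'] at e; exact_mod_cast e)) r hr hne R d hd')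
    rw [Sylow.card_eq_multiplicity R]
    exact dvd_pow_self r (Nat.pos_iff_ne_zero.1 ((hr.factorization_pos_of_dvd Nat.card_pos.ne' hrG)))
  have hle : (P : Subgroup G) ≤ K := le_iInf fun r => fun x hx => by
    obtain ⟨j, hj⟩ := (IsPGroup.iff_orderOf.1 P.2) ⟨x, hx⟩
    refine Transfer.mem_pResidual_of_coprime ?_
    rw [show orderOf x = p ^ j by rw [← hj, ← Subgroup.orderOf_coe]]
    exact Nat.Coprime.pow_left j ((Nat.coprime_primes Fact.out r.2.1).2 (Ne.symm r.2.2.1))
  rw [← P.3 hKp hle]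
  exact hKn

/-- The structure in the third case. -/
def Structured (G : Type u) [Group G] : Prop :=
  ∃ (p : ℕ) (_ : Fact p.Prime) (P : Sylow p G) (A : Subgroup G), (P : Subgroup G).Normal ∧
    IsCyclic ↥A ∧ A ≠ ⊥ ∧ (Nat.card ↥A).Coprime p ∧ A ⊔ (P : Subgroup G) = ⊤ ∧
    IsMulCommutative ↥((P : Subgroup G) ⊓ Subgroup.centralizer (A : Set G)) ∧
    (⁅A, (P : Subgroup G)⁆).Normal ∧
    ((P : Subgroup G) ⊓ Subgroup.centralizer (A : Set G)) ⊔ ⁅A, (P : Subgroup G)⁆ = (P : Subgroup G) ∧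
    ((P : Subgroup G) ⊓ Subgroup.centralizer (A : Set G)) ⊓ ⁅A, (P : Subgroup G)⁆ = ⊥ ∧
    ∀ a ∈ A, a ≠ 1 → ∀ d ∈ ⁅A, (P : Subgroup G)⁆, a * d = d * a → d = 1

theorem structured_of_mult (hm : Mult G) (hpg : ¬ ∃ p : ℕ, p.Prime ∧ IsPGroup p G)
    (hab : ¬ IsMulCommutative G) : Structured G := by
  obtain ⟨χ₀, hχ₀⟩ : ∃ χ : Cfsg.IrrCharacter G, (χ : G → ℂ) 1 ≠ 1 := by
    by_contra hall
    simp only [not_exists, ne_eq, not_not] at hall
    exact hab ⟨⟨comm_of_linear hall⟩⟩
  obtain ⟨p, hp, h⟩ := exists_prime hm hχ₀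
  haveI := Fact.mk hp
  obtain ⟨P⟩ : Nonempty (Sylow p G) := inferInstance
  haveI hPn := sylow_normal h P
  obtain ⟨n, hn⟩ := P.2.exists_card_eq
  have hcPi : (Nat.card (P : Subgroup G)).Coprime (P : Subgroup G).index := by
    rw [hn]; exact Nat.Coprime.pow_left n (hp.coprime_iff_not_dvd.2 P.not_dvd_index)
  obtain ⟨A, hA⟩ := Subgroup.exists_right_complement'_of_coprime hcPi
  have hAP : A ⊔ (P : Subgroup G) = ⊤ := by rw [sup_comm]; exact hA.sup_eq_top
  have hdisj : A ⊓ (P : Subgroup G) = ⊥ := by rw [inf_comm]; exact hA.disjoint.eq_bot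
  have hAcard : Nat.card A = (P : Subgroup G).index := hA.symm.index_eq_card.symm
  have hcop : (Nat.card A).Coprime p := by
    rw [hAcard]; exact (hp.coprime_iff_not_dvd.2 P.not_dvd_index).symm
  have hcAP : (Nat.card A).Coprime (Nat.card (P : Subgroup G)) := by
    rw [hn]; exact Nat.Coprime.pow_right n hcop
  have hA1 : A ≠ ⊥ := fun e => hpg ⟨p, hp, IsPGroup.of_card (n := n) (by
    rw [← (P : Subgroup G).card_mul_index, ← hAcard, e, Subgroup.card_bot, mul_one, hn])⟩
  -- nonlinear characters vanish outside `P`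
  have hvan : ∀ χ : Cfsg.IrrCharacter G, (χ : G → ℂ) 1 ≠ 1 → ∀ g : G,
      g ∉ (P : Subgroup G) → (χ : G → ℂ) g = 0 := by
    intro χ hχ g hg
    obtain ⟨r, hr, hrd, hne⟩ : ∃ r : ℕ, r.Prime ∧ r ∣ orderOf g ∧ r ≠ p := by
      by_contra hall
      refine hg ?_
      have hz : IsPGroup p (zpowers g) := IsPGroup.of_card (n := (orderOf g).primeFactorsList.length) (by
        rw [Nat.card_zpowers]
        refine Nat.eq_prime_pow_of_unique_prime_dvd (orderOf_pos g).ne' fun {r} hr hrd => ?_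
        by_contra hne
        exact hall ⟨r, hr, hrd, hne⟩)
      obtain ⟨Q, hQ⟩ := hz.exists_le_sylow
      letI := Sylow.unique_of_normal P hPn
      rw [Subsingleton.elim P Q]
      exact hQ (mem_zpowers g)
    haveI := Fact.mk hr
    obtain ⟨R⟩ : Nonempty (Sylow r G) := inferInstance
    obtain ⟨d, -, hd⟩ := Char.irr_one_pos χ.2
    have hR := Sylow.card_eq_multiplicity R
    exact Char.irr_defect_zero_vanish' χ.2 hr (Nat.pow_succ_factorization_not_dvd Nat.card_pos.ne' hr)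
      hd (hR ▸ h χ hχ r hr hne R d hd) g hrd
  -- the order of centralisers outside `P`
  have hlin : (Finset.univ.filter fun χ : Cfsg.IrrCharacter G => (χ : G → ℂ) 1 = 1).card =
      (commutator G).index := by
    rw [← Char.card_linear_irr, ← Nat.card_eq_finsetCard]
    exact Nat.card_congr (Equiv.subtypeEquivRight fun χ => by simp)
  have hcent : ∀ g : G, g ∉ (P : Subgroup G) →
      Nat.card (centralizer ({g} : Set G)) = (commutator G).index := by
    intro g hg
    have h1 := Char.sum_irr_mul_conj g g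
    rw [if_pos (IsConj.refl g), ← Finset.sum_filter_add_sum_filter_not Finset.univ
      (fun χ : Cfsg.IrrCharacter G => (χ : G → ℂ) 1 = 1),
      Finset.sum_eq_zero (s := Finset.univ.filter fun χ : Cfsg.IrrCharacter G => ¬ _) (fun χ hχ => by
        rw [hvan χ (Finset.mem_filter.1 hχ).2 g hg, zero_mul]), add_zero,
      Finset.sum_congr rfl (g := fun _ => (1 : ℂ)) (fun χ hχ => by
        obtain ⟨f, hf⟩ := Char.exists_monoidHom_of_degree_one (Char.isCharacter_of_irr χ.2)
          (Finset.mem_filter.1 hχ).2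
        rw [hf, Complex.mul_conj', Complex.norm_eq_one_of_pow_eq_one (n := orderOf g)
          (by rw [← Units.val_pow_eq_pow_val, ← map_pow, pow_orderOf_eq_one, map_one, Units.val_one])
          (orderOf_pos g).ne']
        norm_num), Finset.sum_const, nsmul_one, hlin] at h1
    exact_mod_cast h1.symm
  -- the quotient is abelian
  have hG'P : commutator G ≤ (P : Subgroup G) := by
    haveI : Fintype (G ⧸ (P : Subgroup G)) := Fintype.ofFinite _
    have hq : ∀ β : Cfsg.IrrCharacter (G ⧸ (P : Subgroup G)),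
        (β : G ⧸ (P : Subgroup G) → ℂ) 1 = 1 := by
      intro β
      by_contra hne
      obtain ⟨d, hd0, hd⟩ := Char.irr_one_pos β.2
      have hlt := degree_sq_lt hne hd
      let χ : Cfsg.IrrCharacter G := ⟨(β : G ⧸ (P : Subgroup G) → ℂ) ∘ QuotientGroup.mk' _,
        Char.isIrrCharacter_comp β.2 _ (QuotientGroup.mk'_surjective _)⟩
      have hχ1 : (χ : G → ℂ) 1 = (d : ℂ) := by simp [χ, hd]
      have hi : (P : Subgroup G).index ∣ d := by
        refine Nat.dvd_iff_prime_pow_dvd_dvd _ _ |>.2 fun r i hr hri => ?_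
        rcases eq_or_ne r p with e | e
        · rcases Nat.eq_zero_or_pos i with hi | hi
          · simp [hi]
          · exact absurd ((dvd_pow_self r hi.ne').trans hri) (e ▸ P.not_dvd_index)
        · haveI := Fact.mk hr
          obtain ⟨R⟩ : Nonempty (Sylow r G) := inferInstance
          refine dvd_trans ?_ (h χ (by rw [hχ1, ← hd]; exact hne) r hr e R d hχ1)
          rw [Sylow.card_eq_multiplicity R]
          exact Nat.pow_dvd_pow r ((hr.pow_dvd_iff_le_factorization Nat.card_pos.ne').1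
            (hri.trans (Subgroup.index_dvd_card _)))
      have := Nat.le_of_dvd hd0 hi
      rw [← Subgroup.index_eq_card] at hlt
      nlinarith
    show ⁅(⊤ : Subgroup G), ⊤⁆ ≤ _
    rw [Subgroup.commutator_le]
    intro a _ b _
    refine (QuotientGroup.eq_one_iff _).1 ?_
    show QuotientGroup.mk' (P : Subgroup G) ⁅a, b⁆ = 1
    rw [map_commutatorElement, commutatorElement_eq_one_iff_mul_comm]
    exact comm_of_linear hq _ _
  have hAab : ∀ a ∈ A, ∀ b ∈ A, a * b = b * a := by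
    intro a ha b hb
    rw [← commutatorElement_eq_one_iff_mul_comm]
    have h1 : ⁅a, b⁆ ∈ A ⊓ (P : Subgroup G) :=
      Subgroup.mem_inf.2 ⟨A.mul_mem (A.mul_mem (A.mul_mem ha hb) (A.inv_mem ha)) (A.inv_mem hb),
        hG'P (Subgroup.commutator_mem_commutator (Subgroup.mem_top a) (Subgroup.mem_top b))⟩
    rwa [hdisj, Subgroup.mem_bot] at h1
  haveI hAc : IsMulCommutative A := ⟨⟨fun a b => Subtype.ext (hAab a a.2 b b.2)⟩⟩
  set C := (P : Subgroup G) ⊓ centralizer (A : Set G) with hC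
  set D := ⁅A, (P : Subgroup G)⁆ with hD
  have hAnP : A ≤ normalizer ((P : Subgroup G) : Set G) := Subgroup.le_normalizer_of_normal
  have hDn : D.Normal := Subgroup.normalizer_eq_top_iff.1 (top_unique (hAP ▸ sup_le
    (Coprime.le_normalizer_commutator_left A (P : Subgroup G))
    (Coprime.le_normalizer_commutator_right A (P : Subgroup G))))
  haveI := hDn
  have hCD : C ⊔ D = (P : Subgroup G) := by
    rw [hD, Subgroup.commutator_comm, sup_comm, hC]
    exact Coprime.commutator_sup_centralizer hAnP hcAP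
      (Or.inl (by
        letI : CommGroup A := IsMulCommutative.instCommGroup
        infer_instance))
  have hDP : D ≤ (P : Subgroup G) := hCD ▸ le_sup_right
  have hDG' : D ≤ commutator G := Subgroup.commutator_mono le_top le_top
  have hAmem : ∀ a ∈ A, a ≠ 1 → a ∉ (P : Subgroup G) := fun a ha ha1 haP => ha1 (by
    have : a ∈ A ⊓ (P : Subgroup G) := ⟨ha, haP⟩
    rwa [hdisj, Subgroup.mem_bot] at this)
  have hidx : (commutator G).index = (commutator G).relIndex (P : Subgroup G) * Nat.card A := by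
    rw [← Subgroup.relIndex_mul_index hG'P, hAcard]
  have hrelC : (commutator G).relIndex (P : Subgroup G) ≤ Nat.card C := by
    have h1 : (commutator G).relIndex (P : Subgroup G) = (commutator G).relIndex C := by
      refine le_antisymm ?_ ?_
      · have h2 : C ⊔ commutator G = (P : Subgroup G) :=
          le_antisymm (sup_le inf_le_left hG'P) (hCD ▸ sup_le_sup_left hDG' C)
        rw [← h2, Subgroup.relIndex_sup_right]
      · exact Nat.le_of_dvd (Nat.pos_of_ne_zero Subgroup.index_ne_zero_of_finite)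
          (by
            have h2 : C ⊔ commutator G = (P : Subgroup G) :=
              le_antisymm (sup_le inf_le_left hG'P) (hCD ▸ sup_le_sup_left hDG' C)
            rw [← h2, Subgroup.relIndex_sup_right])
    rw [h1]
    exact Nat.le_of_dvd Nat.card_pos (Subgroup.relIndex_dvd_card _ _)
  have hCa : ∀ a ∈ A, a ≠ 1 → (P : Subgroup G) ⊓ centralizer ({a} : Set G) = C ∧
      Nat.card C ≤ (commutator G).relIndex (P : Subgroup G) := by
    intro a ha ha1
    set E := (P : Subgroup G) ⊓ centralizer ({a} : Set G) with hE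
    have hCE : C ≤ E := fun c hc => ⟨hc.1, mem_centralizer_singleton_iff.2 (hc.2 a ha).symm⟩
    let f : A × E → centralizer ({a} : Set G) := fun z =>
      ⟨(z.1 : G) * (z.2 : G), mul_mem (mem_centralizer_singleton_iff.2 (hAab _ z.1.2 a ha))
        z.2.2.2⟩
    have hf : Function.Injective f := by
      rintro ⟨⟨a₁, h₁⟩, ⟨e₁, k₁⟩⟩ ⟨⟨a₂, h₂⟩, ⟨e₂, k₂⟩⟩ e
      have e' : a₁ * e₁ = a₂ * e₂ := congrArg Subtype.val e
      have hmem : a₂⁻¹ * a₁ ∈ A ⊓ (P : Subgroup G) := by
        refine Subgroup.mem_inf.2 ⟨mul_mem (inv_mem h₂) h₁, ?_⟩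
        have : a₂⁻¹ * a₁ = e₂ * e₁⁻¹ := by
          rw [eq_mul_inv_iff_mul_eq, mul_assoc, e', inv_mul_cancel_left]
        rw [this]
        exact mul_mem k₂.1 (inv_mem k₁.1)
      rw [hdisj, Subgroup.mem_bot, inv_mul_eq_one] at hmem
      subst hmem
      have := mul_left_cancel e'
      subst this
      rfl
    have h1 := Nat.card_le_card_of_injective f hf
    rw [Nat.card_prod, hcent a (hAmem a ha ha1), hidx, mul_comm ((commutator G).relIndex _)] at h1
    have h2 := Nat.le_of_mul_le_mul_left h1 Nat.card_pos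
    refine ⟨(Subgroup.eq_of_le_of_card_ge hCE (h2.trans hrelC)).symm, ?_⟩
    exact (Subgroup.card_le_of_le hCE).trans h2
  obtain ⟨⟨a₀, ha₀⟩, ha₀1⟩ := Subgroup.ne_bot_iff_exists_ne_one.1 hA1
  have hCle := (hCa a₀ ha₀ (fun e => ha₀1 (Subtype.ext e))).2
  have h2 : C ⊔ commutator G = (P : Subgroup G) :=
    le_antisymm (sup_le inf_le_left hG'P) (hCD ▸ sup_le_sup_left hDG' C)
  have hCG' : C ⊓ commutator G = ⊥ := by
    have h3 : (commutator G).relIndex C = Nat.card C := by
      refine le_antisymm (Nat.le_of_dvd Nat.card_pos (Subgroup.relIndex_dvd_card _ _)) ?_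
      rw [← h2, Subgroup.relIndex_sup_right] at hCle
      exact hCle
    rw [← Subgroup.inf_relIndex_right, inf_comm] at h3
    have h4 : Nat.card ↥(C ⊓ commutator G) * (C ⊓ commutator G).relIndex C = Nat.card C := by
      rw [← Subgroup.relIndex_bot_left, Subgroup.relIndex_mul_relIndex _ _ _ bot_le inf_le_left,
        Subgroup.relIndex_bot_left]
    rw [h3] at h4
    exact Subgroup.card_eq_one.1 (Nat.eq_of_mul_eq_mul_right Nat.card_pos (h4.trans (one_mul _).symm))
  have hCDbot : C ⊓ D = ⊥ := le_bot_iff.1 ((inf_le_inf_left C hDG').trans hCG'.le)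
  have hDeq : commutator G = D := by
    refine le_antisymm (fun g hg => ?_) hDG'
    have hgP : g ∈ C ⊔ D := hCD.symm ▸ hG'P hg
    rw [← SetLike.mem_coe, Subgroup.mul_normal] at hgP
    obtain ⟨c, hc, d, hd, rfl⟩ := Set.mem_mul.1 hgP
    have : c ∈ C ⊓ commutator G := ⟨hc, by simpa using mul_mem hg (inv_mem (hDG' hd))⟩
    rw [hCG', Subgroup.mem_bot] at this
    rw [this, one_mul]; exact hd
  have hfpf : ∀ a ∈ A, a ≠ 1 → ∀ d ∈ D, a * d = d * a → d = 1 := by
    intro a ha ha1 d hd hcomm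
    have h1 : d ∈ (P : Subgroup G) ⊓ centralizer ({a} : Set G) :=
      ⟨hDP hd, mem_centralizer_singleton_iff.2 hcomm.symm⟩
    rw [(hCa a ha ha1).1] at h1
    have : d ∈ C ⊓ D := ⟨h1, hd⟩
    rwa [hCDbot, Subgroup.mem_bot] at this
  have hCcomm : IsMulCommutative C := by
    refine ⟨⟨fun x y => Subtype.ext ?_⟩⟩
    show (x : G) * y = y * x
    rw [← commutatorElement_eq_one_iff_mul_comm]
    have : ⁅(x : G), (y : G)⁆ ∈ C ⊓ commutator G :=
      Subgroup.mem_inf.2 ⟨C.mul_mem (C.mul_mem (C.mul_mem x.2 y.2) (C.inv_mem x.2)) (C.inv_mem y.2),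
        Subgroup.commutator_mem_commutator (Subgroup.mem_top _) (Subgroup.mem_top _)⟩
    rwa [hCG', Subgroup.mem_bot] at this
  refine ⟨p, ⟨hp⟩, P, A, hPn, ?_, hA1, hcop, hAP, hCcomm, hDn, hCD, hCDbot, hfpf⟩
  by_contra hnc
  have hgen := Coprime.iSup_centralizer_eq (A := A) (K := D) hnc Subgroup.le_normalizer_of_normal
    (hcAP.coprime_dvd_right (Subgroup.card_dvd_of_le hDP))
  have hDbot : D = ⊥ := by
    rw [← hgen, eq_bot_iff]
    refine iSup₂_le fun a ha d hd => Subgroup.mem_bot.2 ?_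
    exact hfpf a ha.1 ha.2 d hd.1 (mem_centralizer_singleton_iff.1 hd.2).symm
  refine hab ⟨⟨fun x y => ?_⟩⟩
  rw [← commutatorElement_eq_one_iff_mul_comm]
  have : ⁅x, y⁆ ∈ commutator G :=
    Subgroup.commutator_mem_commutator (Subgroup.mem_top x) (Subgroup.mem_top y)
  rwa [hDeq, hDbot, Subgroup.mem_bot] at this

theorem mult_of_structured (hs : Structured G) : Mult G := by
  obtain ⟨p, hp, P, A, hPn, hAc, hA1, hcop, hAP, hCc, hDn, hCD, hCDbot, hfpf⟩ := hs
  haveI := hp
  haveI := hPn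
  haveI := hDn
  set C := (P : Subgroup G) ⊓ centralizer (A : Set G) with hC
  set D := ⁅A, (P : Subgroup G)⁆ with hD
  have hDP : D ≤ (P : Subgroup G) := hCD ▸ le_sup_right
  have hAab : ∀ a ∈ A, ∀ b ∈ A, a * b = b * a := fun a ha b hb => by
    haveI := hAc
    letI : CommGroup A := IsCyclic.commGroup
    exact congrArg Subtype.val (mul_comm (⟨a, ha⟩ : A) ⟨b, hb⟩)
  have hCab : ∀ a ∈ C, ∀ b ∈ C, a * b = b * a := fun a ha b hb => by
    haveI := hCc
    exact congrArg Subtype.val (hCc.is_comm.comm (⟨a, ha⟩ : C) ⟨b, hb⟩)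
  have hdec : ∀ g : G, ∃ a ∈ A, ∃ c ∈ C, ∃ d ∈ D, g = a * c * d := by
    intro g
    have hg : g ∈ A ⊔ (P : Subgroup G) := hAP ▸ Subgroup.mem_top g
    rw [← SetLike.mem_coe, Subgroup.mul_normal] at hg
    obtain ⟨a, ha, u, hu, rfl⟩ := Set.mem_mul.1 hg
    have hu' : u ∈ C ⊔ D := hCD.symm ▸ hu
    rw [← SetLike.mem_coe, Subgroup.mul_normal] at hu'
    obtain ⟨c, hc, d, hd, rfl⟩ := Set.mem_mul.1 hu'
    exact ⟨a, ha, c, hc, d, hd, (mul_assoc a c d).symm⟩
  have hG'D : commutator G ≤ D := by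
    show ⁅(⊤ : Subgroup G), ⊤⁆ ≤ D
    rw [Subgroup.commutator_le]
    intro x _ y _
    refine (QuotientGroup.eq_one_iff _).1 ?_
    show QuotientGroup.mk' D ⁅x, y⁆ = 1
    rw [map_commutatorElement, commutatorElement_eq_one_iff_mul_comm]
    obtain ⟨a, ha, c, hc, d, hd, rfl⟩ := hdec x
    obtain ⟨a', ha', c', hc', d', hd', rfl⟩ := hdec y
    have e1 : ∀ d ∈ D, QuotientGroup.mk' D d = 1 := fun d hd => (QuotientGroup.eq_one_iff d).2 hd
    rw [map_mul, map_mul _ (a' * c'), e1 d hd, e1 d' hd', mul_one, mul_one, ← map_mul, ← map_mul]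
    congr 1
    have k1 : a * c' = c' * a := hc'.2 a ha
    have k2 : c * a' = a' * c := (hc.2 a' ha').symm
    calc a * c * (a' * c') = a * (c * a') * c' := by group
      _ = (a * a') * (c * c') := by rw [k2]; group
      _ = (a' * a) * (c' * c) := by rw [hAab a ha a' ha', hCab c hc c' hc']
      _ = a' * (a * c') * c := by group
      _ = a' * c' * (a * c) := by rw [k1]; group
  have hDG' : D ≤ commutator G := Subgroup.commutator_mono le_top le_top
  -- centralisers outside `P`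
  have hcent : ∀ g : G, g ∉ (P : Subgroup G) →
      Nat.card (centralizer ({g} : Set G)) ≤ (commutator G).index := by
    intro g hg
    obtain ⟨a, ha, c, hc, d, hd, rfl⟩ := hdec g
    have ha1 : a ≠ 1 := fun e => hg (by
      rw [e, one_mul]; exact mul_mem hc.1 (hDP hd))
    have hac : Commute a c := hc.2 a ha
    obtain ⟨n, hn⟩ := P.2.exists_card_eq
    have hpow : (a * c) ^ p ^ n = a ^ p ^ n := by
      rw [hac.mul_pow, show c ^ p ^ n = 1 by
        rw [← hn]
        exact congrArg Subtype.val (pow_card_eq_one' (x := (⟨c, hc.1⟩ : (P : Subgroup G)))),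
        mul_one]
    have hap : a ^ p ^ n ≠ 1 := fun e => ha1 (orderOf_eq_one_iff.1
      (Nat.eq_one_of_dvd_coprimes (Nat.Coprime.pow_right n hcop)
        (Subgroup.orderOf_dvd_natCard A ha) (orderOf_dvd_of_pow_eq_one e)))
    have hfix : ∀ x ∈ D, Commute (a * c) x → x = 1 := fun x hx hxc =>
      hfpf (a ^ p ^ n) (pow_mem ha _) hap x hx (by rw [← hpow]; exact (hxc.pow_left _).eq)
    let f : D → D := fun x => ⟨(a * c)⁻¹ * (x : G) * (a * c) * (x : G)⁻¹,
      mul_mem (hDn.conj_mem' (x : G) x.2 (a * c)) (inv_mem x.2)⟩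
    have hf : Function.Injective f := by
      intro x y e
      have e' : (a * c)⁻¹ * (x : G) * (a * c) * (x : G)⁻¹ =
          (a * c)⁻¹ * (y : G) * (a * c) * (y : G)⁻¹ := congrArg Subtype.val e
      refine Subtype.ext (eq_of_inv_mul_eq_one ?_)
      refine hfix _ (mul_mem (inv_mem x.2) y.2) ?_
      show a * c * ((x : G)⁻¹ * y) = (x : G)⁻¹ * y * (a * c)
      calc a * c * ((x : G)⁻¹ * y)
          = (x : G)⁻¹ * ((a * c) * ((a * c)⁻¹ * x * (a * c) * (x : G)⁻¹)) * y := by group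
        _ = (x : G)⁻¹ * ((a * c) * ((a * c)⁻¹ * y * (a * c) * (y : G)⁻¹)) * y := by rw [e']
        _ = (x : G)⁻¹ * y * (a * c) := by group
    obtain ⟨x, hx⟩ := (Finite.injective_iff_surjective.1 hf) ⟨d, hd⟩
    have hx' : (a * c)⁻¹ * (x : G) * (a * c) * (x : G)⁻¹ = d := congrArg Subtype.val hx
    have hg' : a * c * d = (x : G) * (a * c) * (x : G)⁻¹ := by rw [← hx']; group
    have hinf : D ⊓ centralizer ({a * c * d} : Set G) = ⊥ := by
      rw [eq_bot_iff]
      rintro y ⟨hy, hyc⟩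
      have hyc' := mem_centralizer_singleton_iff.1 hyc
      rw [hg'] at hyc'
      have hcz : Commute (a * c) ((x : G)⁻¹ * y * x) := by
        show a * c * ((x : G)⁻¹ * y * x) = (x : G)⁻¹ * y * x * (a * c)
        calc a * c * ((x : G)⁻¹ * y * x)
            = (x : G)⁻¹ * ((x : G) * (a * c) * (x : G)⁻¹ * y) * x := by group
          _ = (x : G)⁻¹ * (y * ((x : G) * (a * c) * (x : G)⁻¹)) * x := by rw [hyc']
          _ = (x : G)⁻¹ * y * x * (a * c) := by group
      have := hfix _ (hDn.conj_mem' y hy x) hcz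
      rw [Subgroup.mem_bot]
      calc y = (x : G) * ((x : G)⁻¹ * y * x) * (x : G)⁻¹ := by group
        _ = 1 := by rw [this]; group
    have h1 : Nat.card (centralizer ({a * c * d} : Set G)) =
        D.relIndex (centralizer ({a * c * d} : Set G)) := by
      rw [← Subgroup.inf_relIndex_right, hinf, Subgroup.relIndex_bot_left]
    rw [h1, le_antisymm hG'D hDG']
    exact Nat.le_of_dvd (Nat.pos_of_ne_zero Subgroup.index_ne_zero_of_finite)
      (Subgroup.relIndex_dvd_index_of_normal _ _)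
  -- nonlinear characters vanish outside `P`
  have hlin : (Finset.univ.filter fun χ : Cfsg.IrrCharacter G => (χ : G → ℂ) 1 = 1).card =
      (commutator G).index := by
    rw [← Char.card_linear_irr, ← Nat.card_eq_finsetCard]
    exact Nat.card_congr (Equiv.subtypeEquivRight fun χ => by simp)
  have hvan : ∀ χ : Cfsg.IrrCharacter G, (χ : G → ℂ) 1 ≠ 1 → ∀ g : G,
      g ∉ (P : Subgroup G) → (χ : G → ℂ) g = 0 := by
    intro χ hχ g hg
    have h1 := Char.sum_irr_mul_conj g g
    rw [if_pos (IsConj.refl g)] at h1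
    simp only [Complex.mul_conj'] at h1
    have h2 : ∑ ξ : Cfsg.IrrCharacter G, ‖(ξ : G → ℂ) g‖ ^ 2 =
        (Nat.card (centralizer ({g} : Set G)) : ℝ) := by exact_mod_cast h1
    rw [← Finset.sum_filter_add_sum_filter_not Finset.univ
      (fun χ : Cfsg.IrrCharacter G => (χ : G → ℂ) 1 = 1),
      Finset.sum_congr rfl (g := fun _ => (1 : ℝ)) (fun ξ hξ => by
        obtain ⟨f, hf⟩ := Char.exists_monoidHom_of_degree_one (Char.isCharacter_of_irr ξ.2)
          (Finset.mem_filter.1 hξ).2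
        rw [hf, Complex.norm_eq_one_of_pow_eq_one (n := orderOf g)
          (by rw [← Units.val_pow_eq_pow_val, ← map_pow, pow_orderOf_eq_one, map_one, Units.val_one])
          (orderOf_pos g).ne']
        norm_num), Finset.sum_const, nsmul_one, hlin] at h2
    have h3 : (Nat.card (centralizer ({g} : Set G)) : ℝ) ≤ ((commutator G).index : ℝ) :=
      Nat.cast_le.2 (hcent g hg)
    have h4 : (0 : ℝ) ≤ ∑ ξ ∈ Finset.univ.filter (fun χ : Cfsg.IrrCharacter G => ¬ (χ : G → ℂ) 1 = 1),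
        ‖(ξ : G → ℂ) g‖ ^ 2 := Finset.sum_nonneg fun ξ _ => sq_nonneg _
    have h5 : ∑ ξ ∈ Finset.univ.filter (fun χ : Cfsg.IrrCharacter G => ¬ (χ : G → ℂ) 1 = 1),
        ‖(ξ : G → ℂ) g‖ ^ 2 = 0 := le_antisymm (by linarith) h4
    have h6 := (Finset.sum_eq_zero_iff_of_nonneg fun ξ _ => sq_nonneg _).1 h5 χ
      (Finset.mem_filter.2 ⟨Finset.mem_univ _, hχ⟩)
    exact norm_eq_zero.1 (pow_eq_zero_iff two_ne_zero |>.1 h6)
  intro x y χ hx hy h
  obtain ⟨r, s, i, j, hr, hs, hne, hxo, hyo⟩ := h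
  by_cases hχ : (χ : G → ℂ) 1 = 1
  · obtain ⟨f, hf⟩ := Char.exists_monoidHom_of_degree_one (Char.isCharacter_of_irr χ.2) hχ
    rw [hf, hf, hf, map_mul, Units.val_mul]
  have hout : ∀ z : G, z ≠ 1 → ∀ r i : ℕ, r.Prime → r ≠ p → orderOf z = r ^ i →
      z ∉ (P : Subgroup G) := fun z hz r i hr hrp ho hzP => hz (orderOf_eq_one_iff.1 (by
    obtain ⟨n, hn⟩ := P.2.exists_card_eq
    refine Nat.eq_one_of_dvd_coprimes (a := r ^ i) (b := p ^ n) ?_ ho.dvd
      (hn ▸ Subgroup.orderOf_dvd_natCard _ hzP)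
    exact Nat.Coprime.pow _ _ ((Nat.coprime_primes hr hp.out).2 hrp)))
  have hxy : (x ∉ (P : Subgroup G) ∨ y ∉ (P : Subgroup G)) → x * y ∉ (P : Subgroup G) := by
    intro hor hmem
    have hq : QuotientGroup.mk' (P : Subgroup G) x * QuotientGroup.mk' (P : Subgroup G) y = 1 := by
      rw [← map_mul]; exact (QuotientGroup.eq_one_iff _).2 hmem
    have h1 : orderOf (QuotientGroup.mk' (P : Subgroup G) x) = 1 :=
      Nat.eq_one_of_dvd_coprimes (a := r ^ i) (b := s ^ j)
        (Nat.Coprime.pow _ _ ((Nat.coprime_primes hr hs).2 hne))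
        (hxo ▸ orderOf_map_dvd _ x) (by
          rw [eq_inv_of_mul_eq_one_left hq, orderOf_inv]
          exact hyo ▸ orderOf_map_dvd _ y)
    rw [orderOf_eq_one_iff] at h1
    rw [h1, one_mul] at hq
    rcases hor with h | h
    · exact h ((QuotientGroup.eq_one_iff x).1 h1)
    · exact h ((QuotientGroup.eq_one_iff y).1 hq)
  by_cases hrp : r = p
  · have hy' := hout y hy s j hs (fun e => hne (hrp.trans e.symm)) hyo
    rw [hvan χ hχ y hy', mul_zero, hvan χ hχ _ (hxy (Or.inr hy'))]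
  · have hx' := hout x hx r i hr hrp hxo
    rw [hvan χ hχ x hx', zero_mul, hvan χ hχ _ (hxy (Or.inl hx'))]

end Cfsg.Agent.Char9.MulPairs
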