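import Cfsg.Agent.Char.Orthogonality
import Cfsg.Agent.Linear.ClassesPSL
import Mathlib.Analysis.Fourier.FiniteAbelian.PontryaginDuality
import Mathlib.NumberTheory.LegendreSymbol.AddCharacter

/-!
# Representations of `SL(2, q)` restricted to the unipotent subgroup

For an irreducible representation on which `-1` acts trivially every nontrivial character of the
unipotent subgroup occurs at most once, by commutativity of the Hecke algebra of the character.
-/

set_option autoImplicit false
set_option linter.unusedSectionVars false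
set_option linter.style.haveILetI false

namespace Cfsg.Agent.Char9.SLTwo

open Matrix Module
open scoped MatrixGroups Classical

universe u v

variable {F : Type u} [Field F]

/-- The unipotent element. -/
def up (x : F) : SL(2, F) := ⟨!![1, x; 0, 1], by simp [Matrix.det_fin_two]⟩

/-- The diagonal element. -/
def dg (t : Fˣ) : SL(2, F) := ⟨!![(t : F), 0; 0, (t⁻¹ : Fˣ)], by simp [Matrix.det_fin_two]⟩

/-- The Weyl element. -/
def wy : SL(2, F) := ⟨!![0, -1; 1, 0], by simp [Matrix.det_fin_two]⟩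

@[simp] theorem up_coe (x : F) : (up x : Matrix (Fin 2) (Fin 2) F) = !![1, x; 0, 1] := rfl

@[simp] theorem dg_coe (t : Fˣ) :
    (dg t : Matrix (Fin 2) (Fin 2) F) = !![(t : F), 0; 0, (t : F)⁻¹] := by
  ext i j
  fin_cases i <;> fin_cases j <;> simp [dg]

@[simp] theorem wy_coe : ((wy : SL(2, F)) : Matrix (Fin 2) (Fin 2) F) = !![0, -1; 1, 0] := rfl

theorem up_mul (x y : F) : up x * up y = up (x + y) := by
  ext i j; fin_cases i <;> fin_cases j <;> simp [Matrix.mul_apply, Fin.sum_univ_two, add_comm]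

theorem up_zero : up (0 : F) = 1 := by
  ext i j; fin_cases i <;> fin_cases j <;> simp

theorem dg_mul (s t : Fˣ) : dg s * dg t = dg (s * t) := by
  ext i j; fin_cases i <;> fin_cases j <;> simp [Matrix.mul_apply, Fin.sum_univ_two, mul_comm]

theorem dg_one : dg (1 : Fˣ) = 1 := by
  ext i j; fin_cases i <;> fin_cases j <;> simp

theorem up_dg (x : F) (t : Fˣ) : up x * dg t = dg t * up (x / (t : F) ^ 2) := by
  have : (t : F) ≠ 0 := t.ne_zero
  ext i j
  fin_cases i <;> fin_cases j <;> simp [Matrix.mul_apply, Fin.sum_univ_two] <;> field_simp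

theorem det_eq (g : SL(2, F)) : g 0 0 * g 1 1 - g 0 1 * g 1 0 = 1 := by
  rw [← Matrix.det_fin_two]; exact g.2

/-- The Bruhat decomposition, upper triangular case. -/
theorem bruhat_zero (g : SL(2, F)) (h : g 1 0 = 0) :
    ∃ (t : Fˣ) (x : F), (t : F) = g 0 0 ∧ g = dg t * up x := by
  have hd := det_eq g
  rw [h, mul_zero, sub_zero] at hd
  have hne : g 0 0 ≠ 0 := left_ne_zero_of_mul_eq_one hd
  refine ⟨Units.mk0 _ hne, g 0 1 / g 0 0, rfl, ?_⟩
  ext i j
  fin_cases i <;> fin_cases j <;> simp [Matrix.mul_apply, Fin.sum_univ_two, h]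
  · field_simp
  · exact eq_inv_of_mul_eq_one_right hd

/-- The Bruhat decomposition, big cell. -/
theorem bruhat (g : SL(2, F)) (h : g 1 0 ≠ 0) :
    g = up (g 0 0 / g 1 0) * (wy * dg (Units.mk0 _ h)) * up (g 1 1 / g 1 0) := by
  have hd := det_eq g
  ext i j
  fin_cases i <;> fin_cases j <;> simp [Matrix.mul_apply, Fin.sum_univ_two]
  · field_simp
  · field_simp
    linear_combination -hd
  · field_simp

variable [Fintype F] {V : Type v} [AddCommGroup V] [Module ℂ V] [FiniteDimensional ℂ V]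
  (ρ : Representation ℂ SL(2, F) V) (ψ : AddChar F ℂ)

/-- The projection onto the `ψ (c * ·)` part of the restriction to the unipotent subgroup. -/
noncomputable def proj (c : F) : Module.End ℂ V :=
  (Fintype.card F : ℂ)⁻¹ • ∑ x : F, ψ (-(c * x)) • ρ (up x)

theorem card_ne : (Fintype.card F : ℂ) ≠ 0 := Nat.cast_ne_zero.2 Fintype.card_ne_zero

theorem up_mul_proj (c y : F) : ρ (up y) * proj ρ ψ c = ψ (c * y) • proj ρ ψ c := by
  simp only [proj, mul_smul_comm, Finset.mul_sum, Finset.smul_sum, smul_smul, ← map_mul, up_mul]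
  refine Fintype.sum_equiv (Equiv.addLeft y) _ _ fun x => ?_
  rw [Equiv.coe_addLeft, mul_left_comm (ψ (c * y)), ← AddChar.map_add_eq_mul]
  congr 3
  ring

theorem proj_mul_up (c y : F) : proj ρ ψ c * ρ (up y) = ψ (c * y) • proj ρ ψ c := by
  simp only [proj, smul_mul_assoc, Finset.sum_mul, Finset.smul_sum, smul_smul, ← map_mul, up_mul]
  refine Fintype.sum_equiv (Equiv.addRight y) _ _ fun x => ?_
  rw [Equiv.coe_addRight, mul_left_comm (ψ (c * y)), ← AddChar.map_add_eq_mul]
  congr 3
  ring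

theorem proj_mul_self (c : F) : proj ρ ψ c * proj ρ ψ c = proj ρ ψ c := by
  conv_lhs => arg 1; rw [proj]
  rw [smul_mul_assoc, Finset.sum_mul, Finset.sum_congr rfl (g := fun _ => proj ρ ψ c)]
  · rw [Finset.sum_const, Finset.card_univ, ← Nat.cast_smul_eq_nsmul ℂ, smul_smul,
      inv_mul_cancel₀ card_ne, one_smul]
  · intro x _
    rw [smul_mul_assoc, up_mul_proj, smul_smul, ← AddChar.map_add_eq_mul, neg_add_cancel,
      AddChar.map_zero_eq_one, one_smul]

theorem proj_apply_eigen {c : F} {z : V} (h : ∀ x, ρ (up x) z = ψ (c * x) • z) :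
    proj ρ ψ c z = z := by
  rw [proj, LinearMap.smul_apply, LinearMap.sum_apply,
    Finset.sum_congr rfl (g := fun _ => z)]
  · rw [Finset.sum_const, Finset.card_univ, ← Nat.cast_smul_eq_nsmul ℂ, smul_smul,
      inv_mul_cancel₀ card_ne, one_smul]
  · intro x _
    rw [LinearMap.smul_apply, h, smul_smul, ← AddChar.map_add_eq_mul, neg_add_cancel,
      AddChar.map_zero_eq_one, one_smul]

theorem proj_apply_up (c y : F) (z : V) :
    proj ρ ψ c (ρ (up y) z) = ψ (c * y) • proj ρ ψ c z :=
  LinearMap.congr_fun (proj_mul_up ρ ψ c y) z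

theorem proj_apply_self (c : F) (z : V) : proj ρ ψ c (proj ρ ψ c z) = proj ρ ψ c z :=
  LinearMap.congr_fun (proj_mul_self ρ ψ c) z

/-- The multiplicity of `ψ (c * ·)`. -/
noncomputable def mult (c : F) : ℕ := finrank ℂ (LinearMap.range (proj ρ ψ c))

theorem trace_proj (c : F) : LinearMap.trace ℂ V (proj ρ ψ c) = (mult ρ ψ c : ℂ) :=
  LinearMap.IsProj.trace ⟨fun x => LinearMap.mem_range_self _ x, by
    rintro _ ⟨x, rfl⟩
    exact proj_apply_self ρ ψ c x⟩

theorem sum_mult (hψ : ψ.IsPrimitive) : finrank ℂ V = ∑ c : F, mult ρ ψ c := by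
  have h1 : ∑ c : F, proj ρ ψ c = 1 := by
    simp only [proj]
    rw [← Finset.smul_sum, Finset.sum_comm, Finset.sum_eq_single 0]
    · rw [Finset.sum_congr rfl (g := fun _ => (1 : Module.End ℂ V)), Finset.sum_const,
        Finset.card_univ, ← Nat.cast_smul_eq_nsmul ℂ, smul_smul, inv_mul_cancel₀ card_ne, one_smul]
      intro c _
      rw [mul_zero, neg_zero, AddChar.map_zero_eq_one, one_smul, up_zero, map_one]
    · intro x _ hx
      rw [← Finset.sum_smul]
      have := AddChar.sum_mulShift (-x) hψ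
      rw [if_neg (neg_ne_zero.2 hx), Nat.cast_zero] at this
      rw [Finset.sum_congr rfl (g := fun c => ψ (c * -x)) fun c _ => by rw [mul_neg], this,
        zero_smul]
    · simp
  have h2 := congrArg (LinearMap.trace ℂ V) h1
  rw [map_sum, Finset.sum_congr rfl fun c _ => trace_proj ρ ψ c, LinearMap.trace_one] at h2
  exact_mod_cast h2.symm

theorem proj_mul_dg (c : F) (t : Fˣ) :
    proj ρ ψ c * ρ (dg t) = ρ (dg t) * proj ρ ψ (c * (t : F) ^ 2) := by
  have ht : (t : F) ≠ 0 := t.ne_zero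
  rw [proj, proj, smul_mul_assoc, mul_smul_comm, Finset.sum_mul, Finset.mul_sum]
  refine congrArg _ (Fintype.sum_equiv
    (Equiv.divRight₀ ((t : F) ^ 2) (pow_ne_zero 2 ht)) _ _ fun x => ?_)
  rw [smul_mul_assoc, mul_smul_comm, ← map_mul, up_dg, map_mul]
  congr 2
  rw [Equiv.divRight₀_apply]
  field_simp

theorem mult_mul_sq (c : F) (t : Fˣ) : mult ρ ψ (c * (t : F) ^ 2) = mult ρ ψ c := by
  have h1 : proj ρ ψ c = ρ (dg t) * proj ρ ψ (c * (t : F) ^ 2) * ρ (dg t⁻¹) := by
    rw [← proj_mul_dg, mul_assoc, ← map_mul, dg_mul, mul_inv_cancel, dg_one, map_one, mul_one]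
  have h2 := congrArg (LinearMap.trace ℂ V) h1
  rw [LinearMap.trace_mul_comm, ← mul_assoc, ← map_mul, dg_mul, inv_mul_cancel, dg_one, map_one,
    one_mul, trace_proj, trace_proj] at h2
  exact_mod_cast h2.symm

/-- `P ρ(g) P`. -/
noncomputable def hecke (c : F) (g : SL(2, F)) : Module.End ℂ V :=
  proj ρ ψ c * ρ g * proj ρ ψ c

theorem hecke_up_mul_up (c s y : F) (g : SL(2, F)) :
    hecke ρ ψ c (up s * g * up y) = (ψ (c * s) * ψ (c * y)) • hecke ρ ψ c g := by
  rw [hecke, hecke, map_mul, map_mul, show proj ρ ψ c * (ρ (up s) * ρ g * ρ (up y)) * proj ρ ψ c =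
    proj ρ ψ c * ρ (up s) * ρ g * (ρ (up y) * proj ρ ψ c) by simp only [mul_assoc],
    proj_mul_up, up_mul_proj]
  simp only [smul_mul_assoc, mul_smul_comm, smul_smul, mul_comm (ψ (c * y))]

variable (hψ : ψ.IsPrimitive) (hcen : ρ (dg (-1)) = 1)

include hψ hcen

theorem hecke_dg_inv {c : F} (hc : c ≠ 0) (t : Fˣ) :
    hecke ρ ψ c (dg t⁻¹) = hecke ρ ψ c (dg t) := by
  have hzero : ∀ t : Fˣ, (t : F) ^ 2 ≠ 1 → hecke ρ ψ c (dg t) = 0 := by
    intro t ht
    have hne : c * (t : F) ^ 2 ≠ c := fun e => ht (by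
      have : c * (t : F) ^ 2 = c * 1 := by rw [mul_one]; exact e
      exact mul_left_cancel₀ hc this)
    have h0 : proj ρ ψ (c * (t : F) ^ 2) * proj ρ ψ c = 0 := by
      conv_lhs => arg 1; rw [proj]
      rw [smul_mul_assoc, Finset.sum_mul,
        Finset.sum_congr rfl (g := fun x => ψ (x * (c - c * (t : F) ^ 2)) • proj ρ ψ c),
        ← Finset.sum_smul, AddChar.sum_mulShift _ hψ, if_neg (sub_ne_zero.2 hne.symm),
        Nat.cast_zero, zero_smul, smul_zero]
      intro x _
      rw [smul_mul_assoc, up_mul_proj, smul_smul, ← AddChar.map_add_eq_mul]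
      congr 2
      ring
    rw [hecke, proj_mul_dg, mul_assoc, h0, mul_zero]
  by_cases ht : (t : F) ^ 2 = 1
  · have : t⁻¹ = t := inv_eq_of_mul_eq_one_right (Units.ext (by simpa [sq] using ht))
    rw [this]
  · rw [hzero t ht, hzero t⁻¹ (fun e => ht ?_)]
    rw [Units.val_inv_eq_inv_val, inv_pow, inv_eq_one] at e
    exact e

theorem hecke_comm {c : F} (hc : c ≠ 0) (a b : Fˣ) :
    hecke ρ ψ c (wy * dg a) * hecke ρ ψ c (wy * dg b) =
      hecke ρ ψ c (wy * dg b) * hecke ρ ψ c (wy * dg a) := by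
  have hexp : ∀ a b : Fˣ, hecke ρ ψ c (wy * dg a) * hecke ρ ψ c (wy * dg b) =
      (Fintype.card F : ℂ)⁻¹ • ∑ x : F,
        ψ (-(c * x)) • hecke ρ ψ c (wy * dg a * up x * (wy * dg b)) := by
    intro a b
    have : hecke ρ ψ c (wy * dg a) * hecke ρ ψ c (wy * dg b) =
        proj ρ ψ c * ρ (wy * dg a) * (proj ρ ψ c * proj ρ ψ c) * ρ (wy * dg b) * proj ρ ψ c := by
      simp only [hecke, mul_assoc]
    rw [this, proj_mul_self]
    conv_lhs => arg 1; arg 1; arg 2; rw [proj]
    simp only [mul_smul_comm, smul_mul_assoc, Finset.mul_sum, Finset.sum_mul]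
    refine congrArg _ (Finset.sum_congr rfl fun x _ => congrArg _ ?_)
    simp only [hecke, map_mul, mul_assoc]
  rw [hexp, hexp]
  refine congrArg _ (Finset.sum_congr rfl fun x _ => congrArg _ ?_)
  rcases eq_or_ne x 0 with rfl | hx
  · have hm : ∀ a b : Fˣ, wy * dg a * up 0 * (wy * dg b) = dg (-(b * a⁻¹)) := by
      intro a b
      have := a.ne_zero
      have := b.ne_zero
      ext i j
      fin_cases i <;> fin_cases j <;> simp [Matrix.mul_apply, Fin.sum_univ_two, mul_comm]
    rw [hm, hm, ← hecke_dg_inv ρ ψ hψ hcen hc (-(b * a⁻¹))]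
    congr 2
  · have hm : ∀ a b : Fˣ, wy * dg a * up x * (wy * dg b) =
        up (-(b : F) / a / (a * b * x)) * (wy * dg (a * b * Units.mk0 x hx)) *
          up (-(a : F) / b / (a * b * x)) := by
      intro a b
      have := a.ne_zero
      have := b.ne_zero
      ext i j
      fin_cases i <;> fin_cases j <;> simp [Matrix.mul_apply, Fin.sum_univ_two] <;> field_simp
      ring
    rw [hm, hm, hecke_up_mul_up, hecke_up_mul_up, mul_comm a b, mul_comm (a : F) b]
    rw [mul_comm (ψ (c * (-(b : F) / a / (b * a * x))))]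

theorem hecke_commute {c : F} (hc : c ≠ 0) (g h : SL(2, F)) :
    hecke ρ ψ c g * hecke ρ ψ c h = hecke ρ ψ c h * hecke ρ ψ c g := by
  have hP : ∀ g, proj ρ ψ c * hecke ρ ψ c g = hecke ρ ψ c g ∧
      hecke ρ ψ c g * proj ρ ψ c = hecke ρ ψ c g := fun g => by
    constructor
    · rw [hecke, ← mul_assoc, ← mul_assoc, proj_mul_self]
    · rw [hecke, mul_assoc _ (proj ρ ψ c), proj_mul_self]
  have hform : ∀ g : SL(2, F), ∃ (z : ℂ), hecke ρ ψ c g = z • proj ρ ψ c ∨
      ∃ a : Fˣ, hecke ρ ψ c g = z • hecke ρ ψ c (wy * dg a) := by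
    intro g
    by_cases h0 : g 1 0 = 0
    · obtain ⟨t, x, -, rfl⟩ := bruhat_zero g h0
      have e : dg t * up x = up 0 * dg t * up x := by rw [up_zero, one_mul]
      rw [e, hecke_up_mul_up]
      by_cases ht : (t : F) ^ 2 = 1
      · refine ⟨ψ (c * 0) * ψ (c * x), Or.inl (congrArg _ ?_)⟩
        have h1 : ρ (dg t) = 1 := by
          rcases sq_eq_one_iff.1 ht with e | e
          · rw [show t = 1 from Units.ext e, dg_one, map_one]
          · rw [show t = -1 from Units.ext (by simpa using e)]; exact hcen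
        rw [hecke, h1, mul_one, proj_mul_self]
      · refine ⟨0, Or.inl ?_⟩
        have hne : c * (t : F) ^ 2 ≠ c := fun e => ht (by
          have : c * (t : F) ^ 2 = c * 1 := by rw [mul_one]; exact e
          exact mul_left_cancel₀ hc this)
        have h0 : proj ρ ψ (c * (t : F) ^ 2) * proj ρ ψ c = 0 := by
          conv_lhs => arg 1; rw [proj]
          rw [smul_mul_assoc, Finset.sum_mul,
            Finset.sum_congr rfl (g := fun x => ψ (x * (c - c * (t : F) ^ 2)) • proj ρ ψ c),
            ← Finset.sum_smul, AddChar.sum_mulShift _ hψ, if_neg (sub_ne_zero.2 hne.symm),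
            Nat.cast_zero, zero_smul, smul_zero]
          intro x _
          rw [smul_mul_assoc, up_mul_proj, smul_smul, ← AddChar.map_add_eq_mul]
          congr 2
          ring
        rw [hecke, proj_mul_dg, mul_assoc, h0]
        simp
    · refine ⟨ψ (c * (g 0 0 / g 1 0)) * ψ (c * (g 1 1 / g 1 0)), Or.inr ⟨Units.mk0 _ h0, ?_⟩⟩
      conv_lhs => rw [bruhat g h0, hecke_up_mul_up]
  obtain ⟨z, hz | ⟨a, ha⟩⟩ := hform g
  · rw [hz, smul_mul_assoc, mul_smul_comm, (hP h).1, (hP h).2]
  · obtain ⟨z', hz' | ⟨b, hb⟩⟩ := hform h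
    · rw [hz', smul_mul_assoc, mul_smul_comm, (hP g).1, (hP g).2]
    · rw [ha, hb, smul_mul_smul_comm, smul_mul_smul_comm, hecke_comm ρ ψ hψ hcen hc, mul_comm z]

/-- Multiplicity one. -/
theorem mult_le_one (hirr : ρ.IsIrreducible) {c : F} (hc : c ≠ 0) : mult ρ ψ c ≤ 1 := by
  by_contra hgt
  push Not at hgt
  have hWp : 0 < finrank ℂ (LinearMap.range (proj ρ ψ c)) := by
    show 0 < mult ρ ψ c
    omega
  set W := LinearMap.range (proj ρ ψ c) with hW
  haveI : Nontrivial W := Module.finrank_pos_iff.1 hWp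
  have hmem : ∀ (g : SL(2, F)) (z : V), hecke ρ ψ c g z ∈ W := fun g z =>
    ⟨ρ g (proj ρ ψ c z), rfl⟩
  have hfix : ∀ z ∈ W, proj ρ ψ c z = z := by
    rintro _ ⟨y, rfl⟩
    exact proj_apply_self ρ ψ c y
  have hspan : ∀ z ∈ W, z ≠ 0 →
      W ≤ Submodule.span ℂ (Set.range fun g => hecke ρ ψ c g z) := by
    intro z hz hz0 y hy
    have htop : Submodule.span ℂ (Set.range fun g => ρ g z) = ⊤ := by
      refine (((Char.isIrreducible_iff_forall ρ).1 hirr).2 _ fun g v hv => ?_).resolve_left fun e => ?_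
      · induction hv using Submodule.span_induction with
        | mem x hx =>
          obtain ⟨k, rfl⟩ := hx
          exact Submodule.subset_span ⟨g * k, by simp [map_mul]⟩
        | zero => rw [map_zero]; exact Submodule.zero_mem _
        | add x y _ _ hx hy => rw [map_add]; exact Submodule.add_mem _ hx hy
        | smul a x _ hx => rw [map_smul]; exact Submodule.smul_mem _ a hx
      · refine hz0 ?_
        have : z ∈ Submodule.span ℂ (Set.range fun g => ρ g z) :=
          Submodule.subset_span ⟨1, by simp⟩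
        rwa [e, Submodule.mem_bot] at this
    have h1 : proj ρ ψ c y ∈ Submodule.map (proj ρ ψ c)
        (Submodule.span ℂ (Set.range fun g => ρ g z)) :=
      Submodule.mem_map_of_mem (htop ▸ Submodule.mem_top)
    rw [Submodule.map_span, hfix y hy, ← Set.range_comp] at h1
    refine Submodule.span_mono ?_ h1
    rintro _ ⟨g, rfl⟩
    exact ⟨g, by simp only [hecke, Module.End.mul_apply, hfix z hz, Function.comp_apply]⟩
  have hscal : ∀ g, ∃ a : ℂ, ∀ z ∈ W, hecke ρ ψ c g z = a • z := by
    intro g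
    let T : Module.End ℂ W := LinearMap.restrict (hecke ρ ψ c g) fun z _ => hmem g z
    obtain ⟨a, ha⟩ := Module.End.exists_eigenvalue T
    obtain ⟨⟨z, hz⟩, he, hne⟩ := ha.exists_hasEigenvector
    have hz0 : z ≠ 0 := fun e => hne (Subtype.ext e)
    have hza : hecke ρ ψ c g z = a • z :=
      congrArg Subtype.val (Module.End.mem_eigenspace_iff.1 he)
    refine ⟨a, fun y hy => ?_⟩
    have key : ∀ w ∈ Submodule.span ℂ (Set.range fun g => hecke ρ ψ c g z),
        hecke ρ ψ c g w = a • w := by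
      intro w hw
      induction hw using Submodule.span_induction with
      | mem x hx =>
        obtain ⟨k, rfl⟩ := hx
        have := LinearMap.congr_fun (hecke_commute ρ ψ hψ hcen hc g k) z
        simp only [Module.End.mul_apply] at this
        rw [this, hza, map_smul]
      | zero => rw [map_zero, smul_zero]
      | add x y _ _ hx hy => rw [map_add, hx, hy, smul_add]
      | smul b x _ hx => rw [map_smul, hx, smul_comm]
    exact key y (hspan z hz hz0 hy)
  obtain ⟨⟨z, hz⟩, hz0⟩ := exists_ne (0 : W)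
  have hle : W ≤ Submodule.span ℂ {z} := fun y hy => by
    refine Submodule.span_le.2 ?_ (hspan z hz (fun e => hz0 (Subtype.ext e)) hy)
    rintro _ ⟨g, rfl⟩
    obtain ⟨a, ha⟩ := hscal g
    rw [SetLike.mem_coe]
    show hecke ρ ψ c g z ∈ _
    rw [show hecke ρ ψ c g z = a • z from ha z hz]
    exact Submodule.smul_mem _ a (Submodule.mem_span_singleton_self z)
  have h1 := Submodule.finrank_mono hle
  rw [finrank_span_singleton (fun e => hz0 (Subtype.ext e))] at h1
  have : 1 < finrank ℂ W := hgt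
  omega

end Cfsg.Agent.Char9.SLTwo
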