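import Cfsg.Agent.Char9.SLTwoOps

/-!
# Irreducible representations of `SL(2, q)` with a vector fixed by the unipotent subgroup

The translates of such a vector span; when the degree is divisible by the characteristic the
representation is the Steinberg representation.
-/

set_option autoImplicit false
set_option linter.unusedSectionVars false
set_option linter.style.haveILetI false

namespace Cfsg.Agent.Char9.SLTwo

open Matrix Module
open scoped MatrixGroups Classical

universe u v

variable {F : Type u} [Field F] [Fintype F]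

/-- The value of the Steinberg character. -/
noncomputable def steinberg (g : SL(2, F)) : ℂ :=
  ∑ x : F, if ((g * up x * wy : SL(2, F)) : Matrix (Fin 2) (Fin 2) F) 1 0 = 0 then (-1 : ℂ)
    else if ((g * up x * wy : SL(2, F)) : Matrix (Fin 2) (Fin 2) F) 0 0 / ((g * up x * wy : SL(2, F)) : Matrix (Fin 2) (Fin 2) F) 1 0 = x then 1 else 0

variable {V : Type v} [AddCommGroup V] [Module ℂ V] [FiniteDimensional ℂ V]
  (ρ : Representation ℂ SL(2, F) V) (ψ : AddChar F ℂ)

/-- The translates of `v` by the big cell. -/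
def vec (v : V) (x : F) : V := ρ (up x * wy) v

theorem wy_mul_self : (wy : SL(2, F)) * wy = dg (-1) := by
  ext i j; fin_cases i <;> fin_cases j <;> simp [Matrix.mul_apply, Fin.sum_univ_two]

variable (hψ : ψ.IsPrimitive) (hcen : ρ (dg (-1)) = 1) (hirr : ρ.IsIrreducible)
  (v : V) (hv : v ≠ 0) (lam : F → ℂ) (hup : ∀ x, ρ (up x) v = v)
  (hdg : ∀ t : Fˣ, ρ (dg t) v = lam t • v)

section
include hup hdg

theorem act_zero (h : SL(2, F)) (h0 : h 1 0 = 0) : ρ h v = lam (h 0 0) • v := by
  obtain ⟨t, x, ht, e⟩ := bruhat_zero h h0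
  rw [← ht, e, map_mul, Module.End.mul_apply, hup, hdg]

theorem act (h : SL(2, F)) (h0 : h 1 0 ≠ 0) :
    ρ h v = lam (h 1 0) • vec ρ v (h 0 0 / h 1 0) := by
  conv_lhs => rw [bruhat h h0]
  rw [map_mul, Module.End.mul_apply, hup, ← mul_assoc, map_mul, Module.End.mul_apply, hdg,
    map_smul, Units.val_mk0, vec]

theorem span_eq_top (hirr : ρ.IsIrreducible) (hv : v ≠ 0) :
    Submodule.span ℂ (Set.range fun o : Option F => o.elim v (vec ρ v)) = ⊤ := by
  have hbase : ∀ h : SL(2, F),
      ρ h v ∈ Submodule.span ℂ (Set.range fun o : Option F => o.elim v (vec ρ v)) := by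
    intro h
    by_cases h0 : h 1 0 = 0
    · rw [act_zero ρ v lam hup hdg h h0]
      exact Submodule.smul_mem _ _ (Submodule.subset_span ⟨none, rfl⟩)
    · rw [act ρ v lam hup hdg h h0]
      exact Submodule.smul_mem _ _ (Submodule.subset_span ⟨some _, rfl⟩)
  refine (((Char.isIrreducible_iff_forall ρ).1 hirr).2 _ fun g z hz => ?_).resolve_left fun e => ?_
  · induction hz using Submodule.span_induction with
    | mem z hz =>
      obtain ⟨o, rfl⟩ := hz
      cases o with
      | none => exact hbase g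
      | some x =>
        show ρ g (ρ (up x * wy) v) ∈ _
        rw [← Module.End.mul_apply, ← map_mul]
        exact hbase _
    | zero => rw [map_zero]; exact Submodule.zero_mem _
    | add a b _ _ ha hb => rw [map_add]; exact Submodule.add_mem _ ha hb
    | smul a b _ hb => rw [map_smul]; exact Submodule.smul_mem _ a hb
  · refine hv ?_
    have : v ∈ Submodule.span ℂ (Set.range fun o : Option F => o.elim v (vec ρ v)) :=
      Submodule.subset_span ⟨none, rfl⟩
    rwa [e, Submodule.mem_bot] at this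

include hcen

theorem wy_vec (y : F) :
    ρ wy (vec ρ v y) = if y = 0 then v else lam y • vec ρ v (-1 / y) := by
  rw [vec, ← Module.End.mul_apply, ← map_mul]
  split_ifs with h
  · rw [h, up_zero, one_mul, wy_mul_self, hcen, Module.End.one_apply]
  · have h10 : ((wy * (up y * wy) : SL(2, F)) : Matrix (Fin 2) (Fin 2) F) 1 0 = y := by
      simp [Matrix.mul_apply, Fin.sum_univ_two]
    have h00 : ((wy * (up y * wy) : SL(2, F)) : Matrix (Fin 2) (Fin 2) F) 0 0 = -1 := by
      simp [Matrix.mul_apply, Fin.sum_univ_two]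
    rw [act ρ v lam hup hdg _ (by rw [h10]; exact h), h10, h00]

theorem shift_vec (x₀ x : F) : ρ (wy * up (-x₀)) (vec ρ v x) =
    if x = x₀ then v else lam (x - x₀) • vec ρ v (-1 / (x - x₀)) := by
  have : ρ (wy * up (-x₀)) (vec ρ v x) = ρ wy (vec ρ v (x - x₀)) := by
    simp only [vec, ← Module.End.mul_apply, ← map_mul]
    rw [mul_assoc, ← mul_assoc (up (-x₀)), up_mul, neg_add_eq_sub]
  rw [this, wy_vec ρ hcen v lam hup hdg]
  simp only [sub_eq_zero]

end

/-- The projection of the big cell. -/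
noncomputable def projVec : V := proj ρ ψ 0 (ρ wy v)

theorem proj_vec (x : F) : proj ρ ψ 0 (vec ρ v x) = projVec ρ ψ v := by
  rw [vec, map_mul, Module.End.mul_apply, proj_apply_up, zero_mul, AddChar.map_zero_eq_one,
    one_smul, projVec]

section
include hup

theorem proj_fix : proj ρ ψ 0 v = v :=
  proj_apply_eigen ρ ψ fun x => by rw [hup, zero_mul, AddChar.map_zero_eq_one, one_smul]

include hdg hcen

/-- The translates are independent unless the projection of the big cell is a multiple of `v`. -/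
theorem card_lt_finrank (h : ∀ a b : ℂ, a • v + b • projVec ρ ψ v = 0 → a = 0) :
    Fintype.card F < finrank ℂ V := by
  have hli : LinearIndependent ℂ (fun o : Option F => o.elim v (vec ρ v)) := by
    rw [Fintype.linearIndependent_iff]
    intro c hc
    rw [Fintype.sum_option] at hc
    simp only [Option.elim_none, Option.elim_some] at hc
    have h0 : c none = 0 := by
      have h1 := congrArg (proj ρ ψ 0) hc
      simp only [map_add, map_smul, map_sum, map_zero, proj_fix ρ ψ v hup, proj_vec,
        ← Finset.sum_smul] at h1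
      exact h _ _ h1
    rw [h0, zero_smul, zero_add] at hc
    intro o
    cases o with
    | none => exact h0
    | some x₀ =>
      have h1 := congrArg (fun z => proj ρ ψ 0 (ρ (wy * up (-x₀)) z)) hc
      simp only [map_smul, map_sum, map_zero, shift_vec ρ hcen v lam hup hdg] at h1
      rw [← Finset.add_sum_erase _ _ (Finset.mem_univ x₀), if_pos rfl, proj_fix ρ ψ v hup,
        Finset.sum_congr rfl (g := fun x => (c (some x) * lam (x - x₀)) • projVec ρ ψ v),
        ← Finset.sum_smul] at h1
      · exact h _ _ h1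
      · intro x hx
        rw [if_neg (Finset.ne_of_mem_erase hx), map_smul, proj_vec, smul_smul]
  have := hli.fintype_card_le_finrank
  rw [Fintype.card_option] at this
  omega

theorem finrank_le_succ (hirr : ρ.IsIrreducible) (hv : v ≠ 0) :
    finrank ℂ V ≤ Fintype.card F + 1 := by
  have h := finrank_range_le_card (R := ℂ) (fun o : Option F => o.elim v (vec ρ v))
  rw [Set.finrank, span_eq_top ρ v lam hup hdg hirr hv, finrank_top, Fintype.card_option] at h
  exact h

variable (μ : ℂ) (hμ : projVec ρ ψ v = μ • v)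
include hμ

theorem mult_zero (hirr : ρ.IsIrreducible) (hv : v ≠ 0) : mult ρ ψ 0 = 1 := by
  have h1 : LinearMap.range (proj ρ ψ 0) = Submodule.span ℂ {v} := by
    refine le_antisymm ?_ ?_
    · rw [LinearMap.range_eq_map, ← span_eq_top ρ v lam hup hdg hirr hv, Submodule.map_span,
        Submodule.span_le]
      rintro _ ⟨_, ⟨o, rfl⟩, rfl⟩
      cases o with
      | none =>
        show proj ρ ψ 0 v ∈ _
        rw [proj_fix ρ ψ v hup]; exact Submodule.mem_span_singleton_self v
      | some x =>
        show proj ρ ψ 0 (vec ρ v x) ∈ _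
        rw [proj_vec, hμ]
        exact Submodule.smul_mem _ _ (Submodule.mem_span_singleton_self v)
    · rw [Submodule.span_le, Set.singleton_subset_iff]
      exact ⟨v, proj_fix ρ ψ v hup⟩
  rw [mult, h1, finrank_span_singleton hv]

theorem sum_vec : ∑ x : F, vec ρ v x = ((Fintype.card F : ℂ) * μ) • v := by
  rw [mul_smul, ← hμ, projVec, proj, LinearMap.smul_apply, smul_smul,
    mul_inv_cancel₀ card_ne, one_smul, LinearMap.sum_apply]
  refine Finset.sum_congr rfl fun x _ => ?_
  rw [LinearMap.smul_apply, zero_mul, neg_zero, AddChar.map_zero_eq_one, one_smul,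
    ← Module.End.mul_apply, ← map_mul, vec]

theorem wy_sum_vec :
    v + ∑ z ∈ Finset.univ.erase (0 : F), lam (-1 / z) • vec ρ v z =
      ((Fintype.card F : ℂ) * μ) • vec ρ v 0 := by
  have h := congrArg (ρ wy) (sum_vec ρ ψ hcen v lam hup hdg μ hμ)
  rw [map_smul, map_sum, ← Finset.add_sum_erase _ _ (Finset.mem_univ (0 : F)),
    wy_vec ρ hcen v lam hup hdg, if_pos rfl] at h
  have e : vec ρ v 0 = ρ wy v := by rw [vec, up_zero, one_mul]
  rw [e]
  refine Eq.trans ?_ h
  refine congrArg (v + ·) (Finset.sum_nbij' (fun z => -1 / z) (fun z => -1 / z) ?_ ?_ ?_ ?_ ?_)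
  · intro z hz; simpa using hz
  · intro z hz; simpa using hz
  · intro z hz
    have : z ≠ 0 := by simpa using hz
    field_simp
  · intro z hz
    have : z ≠ 0 := by simpa using hz
    field_simp
  · intro z hz
    have hz0 : z ≠ 0 := by simpa using hz
    rw [wy_vec ρ hcen v lam hup hdg, if_neg (by simpa using hz0)]
    congr 2
    field_simp

theorem mu_ne_zero (hirr : ρ.IsIrreducible) (hv : v ≠ 0)
    (hle : finrank ℂ V ≤ Fintype.card F) : μ ≠ 0 := by
  intro h0
  rw [h0, zero_smul] at hμ
  refine (card_lt_finrank ρ ψ hcen v lam hup hdg fun a b hab => ?_).not_ge hle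
  rw [hμ, smul_zero, add_zero, smul_eq_zero] at hab
  exact hab.resolve_right hv

theorem span_vec (hirr : ρ.IsIrreducible) (hv : v ≠ 0) (hμ0 : μ ≠ 0) :
    Submodule.span ℂ (Set.range (vec ρ v)) = ⊤ := by
  rw [eq_top_iff, ← span_eq_top ρ v lam hup hdg hirr hv, Submodule.span_le]
  rintro _ ⟨o, rfl⟩
  cases o with
  | some x => exact Submodule.subset_span ⟨x, rfl⟩
  | none =>
    show v ∈ _
    have h : ∑ x : F, vec ρ v x ∈ Submodule.span ℂ (Set.range (vec ρ v)) :=
      Submodule.sum_mem _ fun x _ => Submodule.subset_span ⟨x, rfl⟩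
    rw [sum_vec ρ ψ hcen v lam hup hdg μ hμ] at h
    exact (Submodule.smul_mem_iff _ (mul_ne_zero card_ne hμ0)).1 h

end

/-- The number of nontrivial constituents of the restriction. -/
theorem two_sum_units {f : F → ℕ} (hsq : ∀ (c : F) (t : Fˣ), f (c * (t : F) ^ 2) = f c)
    (hle : ∀ c, c ≠ 0 → f c ≤ 1) :
    2 * (∑ u : Fˣ, f u) = 0 ∨ 2 * (∑ u : Fˣ, f u) = Fintype.card F - 1 ∨
      ∑ u : Fˣ, f u = Fintype.card F - 1 := by
  set φ : Fˣ →* Fˣ := powMonoidHom 2
  set R := φ.range
  have hker : Nat.card φ.ker ≤ 2 := by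
    have : (φ.ker : Set Fˣ) ⊆ {1, -1} := fun x hx => by
      have h : ((x : F)) ^ 2 = 1 := by
        have h' : x ^ 2 = 1 := hx
        simpa using congrArg Units.val h'
      rcases sq_eq_one_iff.1 h with e | e
      · exact Or.inl (Units.ext e)
      · exact Or.inr (Units.ext (by simpa using e))
    calc Nat.card φ.ker = (φ.ker : Set Fˣ).ncard := (Nat.card_coe_set_eq _).symm.trans (by rfl)
      _ ≤ ({1, -1} : Set Fˣ).ncard := Set.ncard_le_ncard this (Set.toFinite _)
      _ ≤ 2 := (Set.ncard_insert_le _ _).trans (by simp)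
  have hmul := Subgroup.card_mul_index φ.ker
  rw [Subgroup.index_ker] at hmul
  have hidx := Subgroup.card_mul_index R
  have hunits : Nat.card Fˣ = Fintype.card F - 1 := by
    rw [Nat.card_eq_fintype_card, Fintype.card_units]
  have hRpos : 0 < Nat.card R := Nat.card_pos
  have hfR : ∀ u₀ u : Fˣ, u * u₀⁻¹ ∈ R → f u = f u₀ := by
    rintro u₀ u ⟨t, ht⟩
    have : u = u₀ * t ^ 2 := by
      have ht' : t ^ 2 = u * u₀⁻¹ := ht
      rw [ht', mul_comm u, ← mul_assoc, mul_inv_cancel, one_mul]
    rw [this, Units.val_mul, Units.val_pow_eq_pow_val, hsq]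
  have hsplit := Finset.sum_filter_add_sum_filter_not (Finset.univ : Finset Fˣ) (fun u => u ∈ R)
    (fun u : Fˣ => f u)
  have hcardR : (Finset.univ.filter fun u : Fˣ => u ∈ R).card = Nat.card R := by
    rw [← Fintype.card_subtype, ← Nat.card_eq_fintype_card]
  have h1 : ∑ u ∈ Finset.univ.filter (fun u : Fˣ => u ∈ R), f u = Nat.card R * f (1 : Fˣ) := by
    rw [Finset.sum_congr rfl (g := fun _ => f (1 : Fˣ)) fun u hu => hfR 1 u (by
      rw [inv_one, mul_one]; exact (Finset.mem_filter.1 hu).2), Finset.sum_const, hcardR,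
      smul_eq_mul]
  have hcompl := Finset.card_filter_add_card_filter_not
    (s := (Finset.univ : Finset Fˣ)) (fun u => u ∈ R)
  rw [hcardR, Finset.card_univ, ← Nat.card_eq_fintype_card] at hcompl
  have hi : R.index = 1 ∨ R.index = 2 := by
    have h0 : R.index ≠ 0 := Subgroup.index_ne_zero_of_finite
    have : R.index ≤ 2 := by
      by_contra hgt
      have h2 : Nat.card Fˣ ≤ 2 * Nat.card R := by
        rw [← hmul]; exact Nat.mul_le_mul_right _ hker
      have h3 : Nat.card R * 3 ≤ Nat.card Fˣ :=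
        le_of_le_of_eq (Nat.mul_le_mul_left _ (by omega)) hidx
      omega
    omega
  have hb := hle ((1 : Fˣ) : F) (Units.ne_zero _)
  rcases hi with hi | hi
  · rw [hi, mul_one] at hidx
    have h2 : (Finset.univ.filter fun u : Fˣ => ¬ u ∈ R) = ∅ := Finset.card_eq_zero.1 (by omega)
    rw [h1, h2, Finset.sum_empty, add_zero, hidx, hunits] at hsplit
    interval_cases hf : f ((1 : Fˣ) : F)
    · left; omega
    · right; right; omega
  · obtain ⟨u₀, hu₀⟩ : ∃ u₀, u₀ ∉ R := by
      by_contra hall
      simp only [not_exists, not_not] at hall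
      rw [Subgroup.index_eq_one.2 ((Subgroup.eq_top_iff' R).2 hall)] at hi
      omega
    have h2 : ∑ u ∈ Finset.univ.filter (fun u : Fˣ => ¬ u ∈ R), f u = Nat.card R * f u₀ := by
      rw [Finset.sum_congr rfl (g := fun _ => f u₀) fun u hu => hfR u₀ u (by
        rw [Subgroup.mul_mem_iff_of_index_two hi]
        have := (Finset.mem_filter.1 hu).2
        simp [this, hu₀]), Finset.sum_const, smul_eq_mul]
      congr 1
      rw [hi] at hidx
      omega
    have hb' := hle (u₀ : F) (Units.ne_zero _)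
    rw [h1, h2] at hsplit
    rw [hi, hunits] at hidx
    interval_cases hf : f ((1 : Fˣ) : F) <;> interval_cases hf' : f (u₀ : F)
    · left; omega
    · right; left; omega
    · right; left; omega
    · right; right; omega

theorem finrank_eq_mult (hψ : ψ.IsPrimitive) :
    finrank ℂ V = mult ρ ψ 0 + ∑ u : Fˣ, mult ρ ψ u := by
  rw [sum_mult ρ ψ hψ, ← Finset.add_sum_erase _ _ (Finset.mem_univ (0 : F))]
  congr 1
  refine Finset.sum_bij' (fun c hc => Units.mk0 c (Finset.ne_of_mem_erase hc))
    (fun u _ => (u : F)) ?_ ?_ ?_ ?_ ?_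
  · intro c hc; simp
  · intro u _; simp
  · intro c hc; simp
  · intro u _; simp
  · intro c hc; simp

include hψ hcen hirr

/-- An irreducible representation of degree divisible by `p` is the Steinberg representation. -/
theorem steinberg_of_dvd {p : ℕ} (hp : p.Prime) [CharP F p] (hdvd : p ∣ finrank ℂ V) :
    finrank ℂ V = Fintype.card F ∧ ∀ g, ρ.character g = steinberg g := by
  haveI := Fact.mk hp
  obtain ⟨n, -, hqn⟩ := FiniteField.card F p
  set q := Fintype.card F with hq
  have hpq : p ∣ q := by rw [hqn]; exact dvd_pow_self p n.pos.ne'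
  have hq1 : 1 ≤ q := Fintype.card_pos
  haveI := Char.nontrivial_of_isIrreducible ρ (h := hirr)
  have hdimpos : 0 < finrank ℂ V := Module.finrank_pos
  have h2 := two_sum_units (f := mult ρ ψ) (fun c t => mult_mul_sq ρ ψ c t)
    fun c hc => mult_le_one ρ ψ hψ hcen hirr hc
  have hdim := finrank_eq_mult ρ ψ hψ
  set m := ∑ u : Fˣ, mult ρ ψ u
  have hnot : ∀ d, p ∣ d → (d + 1 = q ∨ d = q + 1 ∨ 2 * d + 1 = q ∨ 2 * d = q + 1 ∨ d = 1) →
      False := by
    intro d hd hc
    refine hp.ne_one (Nat.dvd_one.1 ?_)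
    rcases hc with e | e | e | e | e
    · exact (Nat.dvd_add_right hd).1 (e ▸ hpq)
    · exact (Nat.dvd_add_right hpq).1 (e ▸ hd)
    · exact (Nat.dvd_add_right (hd.mul_left 2)).1 (e ▸ hpq)
    · exact (Nat.dvd_add_right hpq).1 (e ▸ hd.mul_left 2)
    · exact e ▸ hd
  have hm0 : mult ρ ψ 0 ≠ 0 := fun h0 => by
    rw [h0, zero_add] at hdim
    rcases h2 with e | e | e
    · omega
    · exact hnot _ hdvd (Or.inr (Or.inr (Or.inl (by omega))))
    · exact hnot _ hdvd (Or.inl (by omega))
  -- an eigenvector of the torus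
  set W := LinearMap.range (proj ρ ψ (0 : F)) with hW
  haveI : Nontrivial W := Module.finrank_pos_iff.1 (Nat.pos_of_ne_zero hm0)
  obtain ⟨gen, hgen⟩ := IsCyclic.exists_generator (α := Fˣ)
  have hinv : ∀ z ∈ W, ρ (dg gen) z ∈ W := by
    rintro _ ⟨y, rfl⟩
    refine ⟨ρ (dg gen) y, ?_⟩
    have := LinearMap.congr_fun (proj_mul_dg ρ ψ 0 gen) y
    rwa [zero_mul] at this
  obtain ⟨a, ha⟩ := Module.End.exists_eigenvalue ((ρ (dg gen)).restrict hinv)
  obtain ⟨⟨v, hvW⟩, he, hne⟩ := ha.exists_hasEigenvector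
  have hv : v ≠ 0 := fun e => hne (Subtype.ext e)
  have hva : ρ (dg gen) v = a • v := congrArg Subtype.val (Module.End.mem_eigenspace_iff.1 he)
  have hex : ∀ t : Fˣ, ∃ b : ℂ, ρ (dg t) v = b • v := by
    intro t
    obtain ⟨k, rfl⟩ := mem_powers_iff_mem_zpowers.2 (hgen t)
    refine ⟨a ^ k, ?_⟩
    show ρ (dg (gen ^ k)) v = _
    induction k with
    | zero => rw [pow_zero, pow_zero, dg_one, map_one, one_smul, Module.End.one_apply]
    | succ k ih => rw [pow_succ, ← dg_mul, map_mul, Module.End.mul_apply, hva, map_smul, ih,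
        smul_smul, pow_succ']
  choose b hb using hex
  let lam : F → ℂ := fun x => if hx : x = 0 then 0 else b (Units.mk0 x hx)
  have hdg : ∀ t : Fˣ, ρ (dg t) v = lam t • v := fun t => by
    simp only [lam, dif_neg t.ne_zero, Units.mk0_val]
    exact hb t
  have hup : ∀ x, ρ (up x) v = v := by
    obtain ⟨y, rfl⟩ := hvW
    intro x
    have := LinearMap.congr_fun (up_mul_proj ρ ψ 0 x) y
    simpa using this
  have hlam1 : lam 1 = 1 := by
    have h := hdg 1
    rw [dg_one, map_one, Module.End.one_apply, Units.val_one] at h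
    exact (smul_left_injective ℂ hv (h.symm.trans (one_smul ℂ v).symm))
  obtain ⟨μ, hμ⟩ : ∃ μ : ℂ, projVec ρ ψ v = μ • v := by
    by_contra hno
    have hlt : q < finrank ℂ V := card_lt_finrank ρ ψ hcen v lam hup hdg fun x y hxy => by
      by_contra hx
      refine hno ⟨-(x / y), ?_⟩
      have hy : y ≠ 0 := fun e => by
        rw [e, zero_smul, add_zero, smul_eq_zero] at hxy
        exact hxy.elim hx hv
      rw [add_comm, add_eq_zero_iff_eq_neg] at hxy
      calc projVec ρ ψ v = y⁻¹ • y • projVec ρ ψ v := by rw [inv_smul_smul₀ hy]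
        _ = _ := by rw [hxy, smul_neg, smul_smul, neg_smul, div_eq_inv_mul]
    have hle := finrank_le_succ ρ hcen v lam hup hdg hirr hv
    exact hnot _ hdvd (Or.inr (Or.inl (by omega)))
  have hmz := mult_zero ρ ψ hcen v lam hup hdg μ hμ hirr hv
  rw [hmz] at hdim
  have hdq : finrank ℂ V = q := by
    rcases h2 with e | e | e
    · exact (hnot _ hdvd (Or.inr (Or.inr (Or.inr (Or.inr (by omega)))))).elim
    · exact (hnot _ hdvd (Or.inr (Or.inr (Or.inr (Or.inl (by omega)))))).elim
    · omega
  refine ⟨hdq, ?_⟩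
  have hμ0 := mu_ne_zero ρ ψ hcen v lam hup hdg μ hμ hirr hv hdq.le
  have hli : LinearIndependent ℂ (vec ρ v) := linearIndependent_of_top_le_span_of_card_eq_finrank
    (span_vec ρ ψ hcen v lam hup hdg μ hμ hirr hv hμ0).ge hdq.symm
  have hvsum : v = ((q : ℂ) * μ)⁻¹ • ∑ x : F, vec ρ v x := by
    rw [sum_vec ρ ψ hcen v lam hup hdg μ hμ, inv_smul_smul₀ (mul_ne_zero card_ne hμ0)]
  have hrel : ∑ z : F, (((q : ℂ) * μ)⁻¹ +
      if z = 0 then -((q : ℂ) * μ) else lam (-1 / z)) • vec ρ v z = 0 := by
    have h := wy_sum_vec ρ ψ hcen v lam hup hdg μ hμ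
    simp only [add_smul, Finset.sum_add_distrib, ← Finset.smul_sum, ← hvsum]
    rw [← Finset.add_sum_erase _ _ (Finset.mem_univ (0 : F)), if_pos rfl,
      Finset.sum_congr rfl (g := fun z => lam (-1 / z) • vec ρ v z) fun z hz => by
        rw [if_neg (Finset.ne_of_mem_erase hz)], neg_smul, ← h]
    abel
  have hcoef := Fintype.linearIndependent_iff.1 hli _ hrel
  have hqm : ((q : ℂ) * μ)⁻¹ = -1 := by
    have := hcoef (-1)
    rw [if_neg (neg_ne_zero.2 one_ne_zero), div_self (neg_ne_zero.2 (one_ne_zero (α := F))),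
      hlam1] at this
    exact eq_neg_of_add_eq_zero_left this
  have hlam : ∀ x : F, x ≠ 0 → lam x = 1 := fun x hx => by
    have hne : -1 / x ≠ 0 := div_ne_zero (neg_ne_zero.2 one_ne_zero) hx
    have := hcoef (-1 / x)
    rw [if_neg hne, hqm, show -1 / (-1 / x) = x by field_simp] at this
    linear_combination this
  let B := Basis.mk hli (span_vec ρ ψ hcen v lam hup hdg μ hμ hirr hv hμ0).ge
  intro g
  rw [Representation.character, LinearMap.trace_eq_matrix_trace ℂ B, Matrix.trace, steinberg]
  refine Finset.sum_congr rfl fun x _ => ?_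
  rw [Matrix.diag, LinearMap.toMatrix_apply]
  have hB : ∀ y, B y = vec ρ v y := fun y => by rw [Basis.mk_apply]
  have e : ρ g (B x) = ρ (g * up x * wy) v := by
    rw [hB, vec, mul_assoc, map_mul ρ g, Module.End.mul_apply]
  rw [e]
  by_cases h0 : ((g * up x * wy : SL(2, F)) : Matrix (Fin 2) (Fin 2) F) 1 0 = 0
  · have hv' : v = -∑ y : F, B y := by
      conv_lhs => rw [hvsum, hqm, neg_one_smul]
      rw [Finset.sum_congr rfl fun y _ => (hB y).symm]
    have h00 : ((g * up x * wy : SL(2, F)) : Matrix (Fin 2) (Fin 2) F) 0 0 ≠ 0 := fun e' => by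
      have := det_eq (g * up x * wy)
      rw [h0, e'] at this
      simp at this
    rw [if_pos h0, act_zero ρ v lam hup hdg _ h0, hlam _ h00, one_smul, hv', map_neg, map_sum,
      Finsupp.neg_apply, Finsupp.finset_sum_apply]
    simp [Finsupp.single_apply]
  · rw [if_neg h0, act ρ v lam hup hdg _ h0, hlam _ h0, one_smul, ← hB, Basis.repr_self,
      Finsupp.single_apply]

omit hψ
variable (hv : v ≠ 0)
include hv hup

/-- A nontrivial constituent of the permutation representation on the line has degree `q`. -/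
theorem finrank_eq_card (hfix : ∀ t : Fˣ, ρ (dg t) v = v) (hne : ∃ g, ρ g ≠ 1)
    (hle : finrank ℂ V ≤ Fintype.card F) : finrank ℂ V = Fintype.card F := by
  haveI : Nontrivial (AddChar F ℂ) :=
    Fintype.one_lt_card_iff_nontrivial.1 (by rw [AddChar.card_eq]; exact Fintype.one_lt_card)
  obtain ⟨ψ, -⟩ := exists_ne (1 : AddChar F ℂ)
  have hdg : ∀ t : Fˣ, ρ (dg t) v = (fun _ : F => (1 : ℂ)) t • v := fun t => by
    rw [one_smul]; exact hfix t
  obtain ⟨μ, hμ⟩ : ∃ μ : ℂ, projVec ρ ψ v = μ • v := by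
    by_contra hno
    refine (card_lt_finrank ρ ψ hcen v (fun _ => (1 : ℂ)) hup hdg fun x y hxy => ?_).not_ge hle
    by_contra hx
    refine hno ⟨-(x / y), ?_⟩
    have hy : y ≠ 0 := fun e => by
      rw [e, zero_smul, add_zero, smul_eq_zero] at hxy
      exact hxy.elim hx hv
    rw [add_comm, add_eq_zero_iff_eq_neg] at hxy
    calc projVec ρ ψ v = y⁻¹ • y • projVec ρ ψ v := by rw [inv_smul_smul₀ hy]
      _ = _ := by rw [hxy, smul_neg, smul_smul, neg_smul, div_eq_inv_mul]
  have hμ0 := mu_ne_zero ρ ψ hcen v (fun _ => (1 : ℂ)) hup hdg μ hμ hirr hv hle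
  have hμ1 : μ ≠ 1 := by
    intro h1
    have h := wy_sum_vec ρ ψ hcen v (fun _ => (1 : ℂ)) hup hdg μ hμ
    have hs := sum_vec ρ ψ hcen v (fun _ => (1 : ℂ)) hup hdg μ hμ
    rw [h1, mul_one] at h hs
    simp only [one_smul] at h
    rw [← Finset.add_sum_erase _ _ (Finset.mem_univ (0 : F)), add_comm, ← eq_sub_iff_add_eq] at hs
    rw [hs] at h
    have h3 : ((Fintype.card F : ℂ) + 1) • (vec ρ v 0 - v) = 0 := by
      rw [smul_sub, add_smul, add_smul, one_smul, one_smul, ← h]
      abel
    have hq : ((Fintype.card F : ℂ) + 1) ≠ 0 := by exact_mod_cast Nat.succ_ne_zero (Fintype.card F)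
    have h4 : vec ρ v 0 = v := sub_eq_zero.1 ((smul_eq_zero.1 h3).resolve_left hq)
    have h5 : ∀ x, vec ρ v x = v := fun x => by
      rw [vec, map_mul, Module.End.mul_apply]
      rw [vec, up_zero, one_mul] at h4
      rw [h4, hup]
    have hsp := span_eq_top ρ v (fun _ => (1 : ℂ)) hup hdg hirr hv
    obtain ⟨g, hg⟩ := hne
    refine hg (LinearMap.ext fun z => ?_)
    have hz : z ∈ Submodule.span ℂ ({v} : Set V) := by
      refine Submodule.span_le.2 ?_ (hsp ▸ Submodule.mem_top :
        z ∈ Submodule.span ℂ (Set.range fun o : Option F => o.elim v (vec ρ v)))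
      rintro _ ⟨o, rfl⟩
      cases o with
      | none => exact Submodule.mem_span_singleton_self v
      | some x =>
        show vec ρ v x ∈ _
        rw [h5]; exact Submodule.mem_span_singleton_self v
    obtain ⟨c, rfl⟩ := Submodule.mem_span_singleton.1 hz
    rw [map_smul, Module.End.one_apply]
    by_cases h0 : g 1 0 = 0
    · rw [act_zero ρ v (fun _ => (1 : ℂ)) hup hdg g h0, one_smul]
    · rw [act ρ v (fun _ => (1 : ℂ)) hup hdg g h0, one_smul, h5]
  have hli : LinearIndependent ℂ (vec ρ v) := by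
    rw [Fintype.linearIndependent_iff]
    intro c hc x₀
    have hsum : ∑ x, c x = 0 := by
      have h1 := congrArg (proj ρ ψ 0) hc
      simp only [map_sum, map_smul, map_zero, proj_vec, hμ, smul_smul, ← Finset.sum_smul,
        ← Finset.sum_mul] at h1
      exact (mul_eq_zero.1 ((smul_eq_zero.1 h1).resolve_right hv)).resolve_right hμ0
    have h1 := congrArg (fun z => proj ρ ψ 0 (ρ (wy * up (-x₀)) z)) hc
    simp only [map_sum, map_smul, map_zero, shift_vec ρ hcen v (fun _ => (1 : ℂ)) hup hdg] at h1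
    rw [← Finset.add_sum_erase _ _ (Finset.mem_univ x₀), if_pos rfl, proj_fix ρ ψ v hup,
      Finset.sum_congr rfl (g := fun x => (c x * μ) • v),
      ← Finset.sum_smul, ← add_smul, ← Finset.sum_mul] at h1
    · rw [← Finset.add_sum_erase _ _ (Finset.mem_univ x₀), ← eq_neg_iff_add_eq_zero] at hsum
      have h2 := (smul_eq_zero.1 h1).resolve_right hv
      have h3 : c x₀ * (1 - μ) = 0 := by linear_combination h2 - μ * hsum
      exact (mul_eq_zero.1 h3).resolve_right (sub_ne_zero.2 hμ1.symm)
    · intro x hx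
      rw [if_neg (Finset.ne_of_mem_erase hx), one_smul, proj_vec, hμ, smul_smul]
  exact le_antisymm hle hli.fintype_card_le_finrank

end Cfsg.Agent.Char9.SLTwo
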